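import Cfsg.Agent.KFacts.Mult.WeightsTwo

/-!
# S4816, RIM-B-L34: central extensions of order two whose kernel lies in the commutator subgroup

The arguments of `Cfsg.Agent.KFacts.Mult.WeightsTwo` (helper517) for extensions `π : L → X` with kernel `{1, c}`, `c ∈ L'`
instead of `L = L'`.
-/

set_option autoImplicit false
set_option linter.style.haveILetI false

namespace Cfsg.Agent.H234.RIM

open Subgroup Cfsg.Agent.Lib Cfsg.Agent.KFacts.Mult.Weights Cfsg.Agent.KFacts.Mult.WeightsTwo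
open scoped commutatorElement

universe u v w

/-- `π : L → X` is a central extension with kernel `{1, c}` of order two -/
structure Dbl0 {L X : Type*} [Group L] [Group X] (π : L →* X) (c : L) : Prop where
  ne : c ≠ 1
  sq : c * c = 1
  cen : ∀ x : L, c * x = x * c
  surj : Function.Surjective π
  ker : ∀ x, π x = 1 ↔ x = 1 ∨ x = c

/-- (MUL-0) -/
theorem hom_eq_one {L : Type*} [Group L] {c : L} [Finite L] (sq : c * c = 1) (cen : ∀ x : L, c * x = x * c) (hcomm : c ∈ commutator L)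
    {P : Subgroup L} (hcP : c ∈ P) (hP : ¬ 2 ∣ P.index)
    {B : Type*} [CommGroup B] (φ : P →* B) : φ ⟨c, hcP⟩ = 1 := by
  have h1 : ∀ (k : ℕ) (g₀ : L), g₀⁻¹ * c ^ k * g₀ ∈ P → g₀⁻¹ * c ^ k * g₀ = c ^ k := by
    intro k g₀ _
    have h2 : Commute c g₀ := cen g₀
    rw [mul_assoc, (h2.pow_left k).eq]; group
  have h3 := MonoidHom.transfer_eq_pow φ c h1
  have h4 : MonoidHom.transfer φ c = 1 := by
    exact Abelianization.commutator_subset_ker (MonoidHom.transfer φ) hcomm
  have h5 : c ^ P.index = c := by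
    obtain ⟨k, hk⟩ := Nat.odd_iff.2 (Nat.two_dvd_ne_zero.1 hP)
    rw [hk, pow_succ, pow_mul, pow_two, sq, one_pow, one_mul]
  have h6 : (⟨c ^ P.index, MonoidHom.transfer_eq_pow_aux c h1⟩ : P) = ⟨c, hcP⟩ := Subtype.ext h5
  rw [h4, h6] at h3
  exact h3.symm

/-- No subgroup of odd index is a direct product of `⟨c⟩` and a subgroup `P₁`. -/
theorem false_of_compl {L : Type*} [Group L] {c : L} [Finite L] (sq : c * c = 1) (cen : ∀ x : L, c * x = x * c)
    (hcomm : c ∈ commutator L) {P P₁ : Subgroup L} (hcP : c ∈ P) (hP : ¬ 2 ∣ P.index)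
    (hc : c ∉ P₁) (hx : ∀ x ∈ P, x ∈ P₁ ∨ c * x ∈ P₁) : False := by
  classical
  let φ : P →* ℤˣ :=
    { toFun := fun x => if (x : L) ∈ P₁ then 1 else -1
      map_one' := by simp
      map_mul' := by
        have key : ∀ x : P, (x : L) ∉ P₁ → c * x ∈ P₁ := fun x hx' => (hx x x.2).resolve_left hx'
        have key2 : ∀ x : P, c * (x : L) ∈ P₁ → (x : L) ∉ P₁ := by
          intro x h1 h2
          apply hc
          have := mul_mem h1 (inv_mem h2)
          rwa [mul_assoc, mul_inv_cancel, mul_one] at this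
        intro x y
        show (if ((x * y : P) : L) ∈ P₁ then (1 : ℤˣ) else -1) = (if (x : L) ∈ P₁ then 1 else -1) *
          (if (y : L) ∈ P₁ then 1 else -1)
        by_cases h1 : (x : L) ∈ P₁
        · by_cases h2 : (y : L) ∈ P₁
          · have h3 : ((x * y : P) : L) ∈ P₁ := mul_mem h1 h2
            rw [if_pos h1, if_pos h2, if_pos h3, one_mul]
          · have h3 : c * ((x * y : P) : L) ∈ P₁ := by
              have e : c * ((x * y : P) : L) = x * (c * y) := by
                rw [coe_mul, ← mul_assoc, cen x, mul_assoc]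
              rw [e]
              exact mul_mem h1 (key y h2)
            rw [if_pos h1, if_neg h2, if_neg (key2 _ h3), one_mul]
        · by_cases h2 : (y : L) ∈ P₁
          · have h3 : c * ((x * y : P) : L) ∈ P₁ := by
              have e : c * ((x * y : P) : L) = (c * x) * y := by rw [coe_mul, mul_assoc]
              rw [e]
              exact mul_mem (key x h1) h2
            rw [if_neg h1, if_pos h2, if_neg (key2 _ h3), mul_one]
          · have h3 : ((x * y : P) : L) ∈ P₁ := by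
              have e : ((x * y : P) : L) = (c * x) * (c * y) := by
                rw [coe_mul, cen x, mul_assoc, ← mul_assoc c c, sq, one_mul]
              rw [e]
              exact mul_mem (key x h1) (key y h2)
            rw [if_neg h1, if_neg h2, if_pos h3]
            rfl }
  have h1 := hom_eq_one sq cen hcomm hcP hP φ
  have h2 : φ ⟨c, hcP⟩ = -1 := if_neg hc
  rw [h2] at h1
  exact absurd h1 (by decide)

variable {L : Type u} {X : Type w} [Group L] [Group X] {π : L →* X} {c : L}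

theorem cz0 (hd : Dbl0 π c) (g : L) : g * c = c * g := (hd.cen g).symm

/-- commuting elements of the quotient -/
theorem comm_or (hd : Dbl0 π c) {x y : L} (h : π x * π y = π y * π x) :
    x * y = y * x ∨ x * y = c * (y * x) := by
  have h1 : π ((x * y) * (y * x)⁻¹) = 1 := by
    rw [map_mul, map_inv, map_mul, map_mul, h, mul_inv_cancel]
  rcases (hd.ker _).mp h1 with h2 | h2
  · left; exact mul_inv_eq_one.mp h2
  · right; exact mul_inv_eq_iff_eq_mul.mp h2

/-- If `V ≤ C(V)'` then the preimage of `V` is abelian. -/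
theorem comm_of_le_commutator (hd : Dbl0 π c) {V : Subgroup X}
    (hV : V ≤ ⁅centralizer (V : Set X), centralizer (V : Set X)⁆) {x y : L} (hx : π x ∈ V)
    (hy : π y ∈ V) : x * y = y * x := by
  set C : Subgroup L := (centralizer (V : Set X)).comap π with hC
  have h1 : ⁅C, C⁆ ≤ centralizer ({x} : Set L) := by
    rw [commutator_le]
    intro a ha b hb
    rw [mem_centralizer_singleton_iff]
    have hax : a * x = x * a ∨ a * x = c * (x * a) :=
      comm_or hd (mem_centralizer_iff.mp ha _ hx).symm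
    have hbx : b * x = x * b ∨ b * x = c * (x * b) :=
      comm_or hd (mem_centralizer_iff.mp hb _ hx).symm
    have key : ∀ a : L, (a * x = x * a ∨ a * x = c * (x * a)) → ∃ e : L, (∀ g : L, g * e = e * g) ∧
        a * x = e * (x * a) := by
      rintro a (h | h)
      · exact ⟨1, fun g => by simp, by rw [one_mul]; exact h⟩
      · exact ⟨c, cz0 hd, h⟩
    obtain ⟨e, he, hae⟩ := key a hax
    obtain ⟨f, hf, hbf⟩ := key b hbx
    have hx1 : a * x * a⁻¹ = e * x := by rw [hae]; group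
    have hx2 : b * x * b⁻¹ = f * x := by rw [hbf]; group
    have hx3 : a⁻¹ * x * a = e⁻¹ * x := by
      have : x = e⁻¹ * (a * x * a⁻¹) := by rw [hx1, inv_mul_cancel_left]
      calc a⁻¹ * x * a = a⁻¹ * (e⁻¹ * (a * x * a⁻¹)) * a := by rw [← this]
        _ = (a⁻¹ * e⁻¹) * a * x := by group
        _ = (e⁻¹ * a⁻¹) * a * x := by
          rw [show a⁻¹ * e⁻¹ = e⁻¹ * a⁻¹ by rw [← mul_inv_rev, ← mul_inv_rev, he a]]
        _ = e⁻¹ * x := by group
    have hx4 : b⁻¹ * x * b = f⁻¹ * x := by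
      have : x = f⁻¹ * (b * x * b⁻¹) := by rw [hx2, inv_mul_cancel_left]
      calc b⁻¹ * x * b = b⁻¹ * (f⁻¹ * (b * x * b⁻¹)) * b := by rw [← this]
        _ = (b⁻¹ * f⁻¹) * b * x := by group
        _ = (f⁻¹ * b⁻¹) * b * x := by
          rw [show b⁻¹ * f⁻¹ = f⁻¹ * b⁻¹ by rw [← mul_inv_rev, ← mul_inv_rev, hf b]]
        _ = f⁻¹ * x := by group
    have h5 : ⁅a, b⁆ * x * ⁅a, b⁆⁻¹ = x := by
      rw [commutatorElement_def]
      calc a * b * a⁻¹ * b⁻¹ * x * (a * b * a⁻¹ * b⁻¹)⁻¹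
          = a * b * (a⁻¹ * (b⁻¹ * x * b) * a) * b⁻¹ * a⁻¹ := by group
        _ = a * b * (a⁻¹ * (f⁻¹ * x) * a) * b⁻¹ * a⁻¹ := by rw [hx4]
        _ = a * b * ((a⁻¹ * f⁻¹) * x * a) * b⁻¹ * a⁻¹ := by group
        _ = a * b * ((f⁻¹ * a⁻¹) * x * a) * b⁻¹ * a⁻¹ := by
          rw [show a⁻¹ * f⁻¹ = f⁻¹ * a⁻¹ by rw [← mul_inv_rev, ← mul_inv_rev, hf a]]
        _ = a * b * (f⁻¹ * (a⁻¹ * x * a)) * b⁻¹ * a⁻¹ := by group
        _ = a * (b * f⁻¹) * e⁻¹ * x * b⁻¹ * a⁻¹ := by rw [hx3]; group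
        _ = a * (f⁻¹ * b) * e⁻¹ * x * b⁻¹ * a⁻¹ := by
          rw [show b * f⁻¹ = f⁻¹ * b by
            rw [eq_inv_mul_iff_mul_eq, ← mul_assoc, ← hf b, mul_inv_cancel_right]]
        _ = a * f⁻¹ * (b * e⁻¹) * x * b⁻¹ * a⁻¹ := by group
        _ = a * f⁻¹ * (e⁻¹ * b) * x * b⁻¹ * a⁻¹ := by
          rw [show b * e⁻¹ = e⁻¹ * b by
            rw [eq_inv_mul_iff_mul_eq, ← mul_assoc, ← he b, mul_inv_cancel_right]]
        _ = a * f⁻¹ * e⁻¹ * (b * x * b⁻¹) * a⁻¹ := by group
        _ = a * f⁻¹ * e⁻¹ * (f * x) * a⁻¹ := by rw [hx2]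
        _ = a * f⁻¹ * (e⁻¹ * f) * x * a⁻¹ := by group
        _ = a * f⁻¹ * (f * e⁻¹) * x * a⁻¹ := by rw [hf e⁻¹]
        _ = (a * e⁻¹) * x * a⁻¹ := by group
        _ = (e⁻¹ * a) * x * a⁻¹ := by
          rw [show a * e⁻¹ = e⁻¹ * a by
            rw [eq_inv_mul_iff_mul_eq, ← mul_assoc, ← he a, mul_inv_cancel_right]]
        _ = e⁻¹ * (a * x * a⁻¹) := by group
        _ = x := by rw [hx1, inv_mul_cancel_left]
    rw [mul_inv_eq_iff_eq_mul] at h5
    exact h5
  have h2 : (⁅C, C⁆).map π = ⁅centralizer (V : Set X), centralizer (V : Set X)⁆ := by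
    rw [Subgroup.map_commutator, Subgroup.map_comap_eq_self_of_surjective hd.surj]
  have h3 : π y ∈ (⁅C, C⁆).map π := by rw [h2]; exact hV hy
  obtain ⟨z, hz, hzy⟩ := h3
  have h4 : z * x = x * z := mem_centralizer_singleton_iff.mp (h1 hz)
  have h5 : π (z⁻¹ * y) = 1 := by rw [map_mul, map_inv, hzy, inv_mul_cancel]
  rcases (hd.ker _).mp h5 with h6 | h6
  · rw [inv_mul_eq_one] at h6
    rw [← h6]; exact h4.symm
  · rw [inv_mul_eq_iff_eq_mul] at h6
    rw [h6, ← mul_assoc, ← h4, mul_assoc, mul_assoc, cz0 hd x]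

/-- a `p`-subgroup lifts -/
theorem exists_lift [Finite L] (hd : Dbl0 π c) {p : ℕ} [Fact p.Prime] (hp : Odd p) {T : Subgroup X}
    (hT : IsPGroup p T) : ∃ T' : Subgroup L, IsPGroup p T' ∧ T'.map π = T := by
  have : Finite X := Finite.of_surjective π hd.surj
  obtain ⟨S⟩ : Nonempty (Sylow p (T.comap π)) := inferInstance
  refine ⟨(S : Subgroup (T.comap π)).map (T.comap π).subtype, S.2.map _, ?_⟩
  have hle : ((S : Subgroup (T.comap π)).map (T.comap π).subtype).map π ≤ T := by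
    rintro _ ⟨_, ⟨s, -, rfl⟩, rfl⟩
    exact s.2
  apply le_antisymm hle
  -- every element of `T` is in the image
  intro t ht
  obtain ⟨x, rfl⟩ := hd.surj t
  obtain ⟨k, hk⟩ := hT ⟨π x, ht⟩
  have hk' : (π x) ^ p ^ k = 1 := congrArg Subtype.val hk
  -- adjust `x` to have odd order
  obtain ⟨y, hy, hyk⟩ : ∃ y : L, π y = π x ∧ y ^ p ^ k = 1 := by
    have h1 : π (x ^ p ^ k) = 1 := by rw [map_pow, hk']
    rcases (hd.ker _).mp h1 with h2 | h2
    · exact ⟨x, rfl, h2⟩
    · refine ⟨c * x, by rw [map_mul, (hd.ker c).mpr (Or.inr rfl), one_mul], ?_⟩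
      rw [(show Commute c x from hd.cen x).mul_pow, h2]
      obtain ⟨j, hj⟩ := hp.pow (n := k)
      rw [hj, pow_succ, pow_mul, pow_two, hd.sq, one_pow, one_mul, hd.sq]
  have hyT : y ∈ T.comap π := by rw [mem_comap, hy]; exact ht
  -- `y` is in a conjugate of `S`
  let Y : Subgroup (T.comap π) := zpowers ⟨y, hyT⟩
  have hY : IsPGroup p Y := by
    rintro ⟨z, hz⟩
    obtain ⟨j, rfl⟩ := mem_zpowers_iff.mp hz
    refine ⟨k, Subtype.ext (Subtype.ext ?_)⟩
    show (y ^ j) ^ p ^ k = 1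
    rw [← zpow_natCast, ← zpow_mul, mul_comm, zpow_mul, zpow_natCast, hyk, one_zpow]
  -- use cardinalities instead
  have hcard : Nat.card (T.comap π) = 2 * Nat.card T := by
    let f : T.comap π →* T :=
      { toFun := fun x => ⟨π x, x.2⟩
        map_one' := Subtype.ext (map_one π)
        map_mul' := fun x y => Subtype.ext (map_mul π _ _) }
    have hf : Function.Surjective f := by
      rintro ⟨t, ht⟩
      obtain ⟨x, rfl⟩ := hd.surj t
      exact ⟨⟨x, ht⟩, rfl⟩
    have hker : Nat.card f.ker = 2 := by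
      have hc : c ∈ T.comap π := by
        rw [mem_comap, (hd.ker c).mpr (Or.inr rfl)]; exact T.one_mem
      rw [Nat.card_eq_two_iff]
      refine ⟨1, ⟨⟨c, hc⟩, ?_⟩, ?_, ?_⟩
      · rw [MonoidHom.mem_ker]
        exact Subtype.ext ((hd.ker c).mpr (Or.inr rfl))
      · intro h0
        exact hd.ne (congrArg (fun z : f.ker => ((z : T.comap π) : L)) h0).symm
      · ext z
        simp only [Set.mem_insert_iff, Set.mem_singleton_iff, Set.mem_univ, iff_true]
        have hz : π z.1.1 = 1 := congrArg Subtype.val (MonoidHom.mem_ker.mp z.2)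
        rcases (hd.ker _).mp hz with h1 | h1
        · exact Or.inl (Subtype.ext (Subtype.ext h1))
        · exact Or.inr (Subtype.ext (Subtype.ext h1))
    have h1 := f.ker.card_mul_index
    rw [Subgroup.index_ker, MonoidHom.range_eq_top.mpr hf, Subgroup.card_top, hker] at h1
    exact h1.symm
  obtain ⟨a, ha⟩ := IsPGroup.iff_card.mp hT
  have hp2 : p ≠ 2 := by rintro rfl; exact absurd hp (by decide)
  have hS : Nat.card S = Nat.card T := by
    rw [Sylow.card_eq_multiplicity, hcard, ha,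
      Nat.factorization_mul (by norm_num) (pow_ne_zero _ (Fact.out : p.Prime).ne_zero),
      Finsupp.add_apply, Nat.Prime.factorization Nat.prime_two,
      Finsupp.single_eq_of_ne hp2, zero_add, (Fact.out : p.Prime).factorization_pow,
      Finsupp.single_eq_same]
  have hinj : Function.Injective (fun s : (S : Subgroup (T.comap π)) => π (s : T.comap π)) := by
    intro s s' hss
    have h1 : π ((s : T.comap π) * ((s' : T.comap π) : L)⁻¹) = 1 := by
      rw [map_mul, map_inv]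
      exact mul_inv_eq_one.mpr hss
    rcases (hd.ker _).mp h1 with h2 | h2
    · exact Subtype.ext (Subtype.ext (mul_inv_eq_one.mp h2))
    · exfalso
      obtain ⟨j, hj⟩ := S.2 (s * s'⁻¹)
      have h3 : ((s : T.comap π) * ((s' : T.comap π) : L)⁻¹) ^ p ^ j = 1 :=
        congrArg (fun z : (S : Subgroup (T.comap π)) => ((z : T.comap π) : L)) hj
      rw [h2] at h3
      obtain ⟨i, hi⟩ := hp.pow (n := j)
      rw [hi, pow_succ, pow_mul, pow_two, hd.sq, one_pow, one_mul] at h3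
      exact hd.ne h3
  have hcm : Nat.card (((S : Subgroup (T.comap π)).map (T.comap π).subtype).map π) = Nat.card T := by
    rw [← hS]
    refine Nat.card_congr (Equiv.ofBijective (fun s : (S : Subgroup (T.comap π)) =>
      (⟨π (s : T.comap π), _, ⟨_, s.2, rfl⟩, rfl⟩ : ↥(((S : Subgroup (T.comap π)).map
        (T.comap π).subtype).map π))) ⟨?_, ?_⟩).symm
    · intro s s' hss
      exact hinj (congrArg Subtype.val hss)
    · rintro ⟨_, _, ⟨s, hs, rfl⟩, rfl⟩
      exact ⟨⟨s, hs⟩, rfl⟩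
  have heq := Subgroup.eq_of_le_of_card_ge hle (by rw [hcm])
  rw [heq]
  exact ht

/-- abelian preimage -/
theorem spl_of_comm [Finite L] (hd : Dbl0 π c) {p : ℕ} [Fact p.Prime] (hp : Odd p) {T V : Subgroup X}
    (hT : IsPGroup p T) (hV2 : IsPGroup 2 V) (hVT : ∀ t ∈ T, ∀ v ∈ V, t * v * t⁻¹ ∈ V)
    (hfix : ∀ v ∈ V, (∀ t ∈ T, t * v = v * t) → v = 1)
    (hab : ∀ x y : L, π x ∈ V → π y ∈ V → x * y = y * x) :
    ∃ M : Subgroup L, c ∉ M ∧ M ≤ V.comap π ∧ (∀ v ∈ V.comap π, v ∈ M ∨ v * c ∈ M) ∧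
      ∀ t ∈ T.comap π, ∀ m ∈ M, t * m * t⁻¹ ∈ M := by
  obtain ⟨T', hT'p, hT'⟩ := exists_lift hd hp hT
  have hker : ∀ x : L, π x = 1 ↔ x = 1 ∨ x = c := hd.ker
  have hT'T : ∀ t ∈ T', π t ∈ T := fun t ht => by rw [← hT']; exact mem_map_of_mem _ ht
  have hcommlift : ∀ t ∈ T', ∀ x : L, π t * π x = π x * π t → t * x = x * t := by
    intro t ht x hx
    obtain ⟨k, hk⟩ := hT'p ⟨t, ht⟩
    exact commute_of_odd hd.ne hd.sq (cz0 hd) (hp.pow (n := k)) (congrArg Subtype.val hk)
      (comm_or hd hx)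
  have hcV : c ∈ V.comap π := by rw [mem_comap, (hker c).mpr (Or.inr rfl)]; exact V.one_mem
  set W : Subgroup L := V.comap π with hW
  have hWab : ∀ x ∈ W, ∀ y ∈ W, x * y = y * x := fun x hx y hy => hab x y hx hy
  have hWT : T' ≤ normalizer (W : Set L) := by
    rw [conj_mem_iff_normalizer]
    intro t ht x hx
    rw [hW, mem_comap, map_mul, map_mul, map_inv]
    exact hVT _ (hT'T t ht) _ hx
  have hW2 : IsPGroup 2 W := by
    rintro ⟨x, hx⟩
    obtain ⟨k, hk⟩ := hV2 ⟨π x, hx⟩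
    refine ⟨k + 1, Subtype.ext ?_⟩
    show x ^ 2 ^ (k + 1) = 1
    have h1 : π (x ^ 2 ^ k) = 1 := by rw [map_pow]; exact congrArg Subtype.val hk
    rw [pow_succ, pow_mul, pow_two]
    rcases (hker _).mp h1 with h2 | h2
    · rw [h2, one_mul]
    · rw [h2, hd.sq]
  have hcop : (Nat.card T').Coprime (Nat.card W) := by
    obtain ⟨a, ha⟩ := IsPGroup.iff_card.mp hT'p
    obtain ⟨b, hb⟩ := IsPGroup.iff_card.mp hW2
    rw [ha, hb]
    exact Nat.Coprime.pow _ _ (Nat.Coprime.symm (Nat.coprime_two_left.mpr hp))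
  have h1 := CoprimeAbelian.inf_commutator_eq_bot T' W hWab hWT hcop
  have h2 := CoprimeAbelian.sup_commutator_eq T' W hWab hWT hcop
  have hle : ⁅W, T'⁆ ≤ W := CoprimeCommutator.commutator_le_left hWT
  refine ⟨⁅W, T'⁆, ?_, hle, ?_, ?_⟩
  · intro hc
    have h3 : c ∈ (W ⊓ centralizer (T' : Set L)) ⊓ ⁅W, T'⁆ :=
      ⟨⟨hcV, mem_centralizer_iff.mpr fun t _ => cz0 hd t⟩, hc⟩
    rw [h1, mem_bot] at h3
    exact hd.ne h3
  · intro v hv
    have h3 : v ∈ (W ⊓ centralizer (T' : Set L)) ⊔ ⁅W, T'⁆ := by rw [h2]; exact hv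
    have h4 : W ⊓ centralizer (T' : Set L) ≤ normalizer ((⁅W, T'⁆ : Subgroup L) : Set L) := by
      rw [conj_mem_iff_normalizer]
      rintro x ⟨hx, -⟩ y hy
      rw [hWab x hx y (hle hy), mul_inv_cancel_right]
      exact hy
    rw [← SetLike.mem_coe, Subgroup.coe_mul_of_left_le_normalizer_right _ _ h4] at h3
    obtain ⟨x, ⟨hxW, hxT⟩, y, hy, rfl⟩ := h3
    have hx1 : x = 1 ∨ x = c := by
      rw [← hker]
      apply hfix _ hxW
      intro t ht
      rw [← hT'] at ht
      obtain ⟨t, ht, rfl⟩ := ht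
      rw [← map_mul, mem_centralizer_iff.mp hxT t ht, map_mul]
    rcases hx1 with rfl | rfl
    · left
      show 1 * y ∈ _
      rw [one_mul]; exact hy
    · right
      show x * y * x ∈ _
      rw [hd.cen y, mul_assoc, hd.sq, mul_one]
      exact hy
  · intro t ht m hm
    -- `t = t' x` with `t' ∈ T'` and `x ∈ <c>`
    rw [mem_comap, ← hT'] at ht
    obtain ⟨t', ht', htt⟩ := ht
    have h3 : π (t'⁻¹ * t) = 1 := by rw [map_mul, map_inv, htt, inv_mul_cancel]
    have h4 : t * m * t⁻¹ = t' * m * t'⁻¹ := by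
      rcases (hker _).mp h3 with h5 | h5
      · rw [inv_mul_eq_one.mp h5]
      · rw [inv_mul_eq_iff_eq_mul] at h5
        rw [h5, mul_inv_rev]
        calc t' * c * m * (c⁻¹ * t'⁻¹) = t' * ((c * m) * c⁻¹) * t'⁻¹ := by group
          _ = t' * ((m * c) * c⁻¹) * t'⁻¹ := by rw [hd.cen m]
          _ = t' * m * t'⁻¹ := by group
    rw [h4]
    exact (mem_normalizer_iff.mp (CoprimeCommutator.right_le_normalizer_commutator W T' ht') m).mp hm

/-- **No double covers, from weights.** -/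
theorem false_of_weights [Finite L] (hd : Dbl0 π c) (hcomm : c ∈ commutator L) {ι : Type v} {p : ℕ} [Fact p.Prime]
    {U T : Subgroup X} {V : ι → Subgroup X} (h : WHyp p U T V)
    (hs : ∀ i, ∃ M : Subgroup L, c ∉ M ∧ M ≤ (V i).comap π ∧ (∀ v ∈ (V i).comap π, v ∈ M ∨ v * c ∈ M) ∧
      ∀ t ∈ T.comap π, ∀ m ∈ M, t * m * t⁻¹ ∈ M) : False := by
  obtain ⟨T', hT'p, hT'⟩ := exists_lift hd h.odd h.tp
  have hker : ∀ x : L, π x = 1 ↔ x = 1 ∨ x = c := hd.ker
  have hT'T : ∀ t ∈ T', π t ∈ T := fun t ht => by rw [← hT']; exact mem_map_of_mem _ ht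
  have hcommlift : ∀ t ∈ T', ∀ x : L, π t * π x = π x * π t → t * x = x * t := by
    intro t ht x hx
    obtain ⟨k, hk⟩ := hT'p ⟨t, ht⟩
    exact commute_of_odd hd.ne hd.sq (cz0 hd) (h.odd.pow (n := k)) (congrArg Subtype.val hk)
      (comm_or hd hx)
  have hπc : π c = 1 := (hker c).mpr (Or.inr rfl)
  have hcP : c ∈ U.comap π := by rw [mem_comap, hπc]; exact U.one_mem
  have hUg : IsPGroup 2 (U.comap π) := by
    rintro ⟨x, hx⟩
    obtain ⟨k, hk⟩ := h.pg ⟨π x, hx⟩
    refine ⟨k + 1, Subtype.ext ?_⟩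
    show x ^ 2 ^ (k + 1) = 1
    have h1 : π (x ^ 2 ^ k) = 1 := by rw [map_pow]; exact congrArg Subtype.val hk
    rw [pow_succ, pow_mul, pow_two]
    rcases (hker _).mp h1 with h2 | h2
    · rw [h2, one_mul]
    · rw [h2, hd.sq]
  obtain ⟨K, hKP, hcK, hK⟩ := exists_compl' (P := U.comap π) (T := T') (V := fun i => (V i).comap π)
    (c := c) hUg hT'p h.odd
    (fun t ht x hx => by
      rw [mem_comap, map_mul, map_mul, map_inv]; exact h.UT _ (hT'T t ht) _ hx)
    hcP hd.ne hd.sq (cz0 hd) (fun i => Subgroup.comap_mono (h.VU i))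
    (fun i t ht v hv => by
      rw [mem_comap, map_mul, map_mul, map_inv]; exact h.VT i _ (hT'T t ht) _ hv)
    (by
      intro x hx
      have h1 : π x ∈ (⨆ i, (V i).comap π).map π := by
        rw [Subgroup.map_iSup]
        have h2 : ∀ i, ((V i).comap π).map π = V i := fun i =>
          Subgroup.map_comap_eq_self_of_surjective hd.surj _
        simp only [h2]
        exact h.gen hx
      obtain ⟨y, hy, hyx⟩ := h1
      have h3 : π (y⁻¹ * x) = 1 := by rw [map_mul, map_inv, hyx, inv_mul_cancel]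
      have h4 : x = y * (y⁻¹ * x) := by group
      rw [h4]
      refine Subgroup.mul_mem_sup hy ?_
      rcases (hker _).mp h3 with h5 | h5
      · rw [h5]; exact one_mem _
      · rw [h5]; exact mem_zpowers c)
    (fun i u hu hf => by
      refine h.fix i _ hu fun t ht htv => ?_
      rw [← hT'] at ht
      obtain ⟨t, ht, rfl⟩ := ht
      have h1 := hf t ht fun v hv => hcommlift t ht v (htv _ hv)
      rw [← map_mul, h1, map_mul])
    (fun u hu hf => by
      rw [← hker]
      refine h.fixT _ hu fun t ht => ?_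
      rw [← hT'] at ht
      obtain ⟨t, ht, rfl⟩ := ht
      rw [← map_mul, hf t ht, map_mul])
    (fun i => by
      obtain ⟨M, h1, h2, h3, h4⟩ := hs i
      exact ⟨M, h1, h2, h3, fun t ht m hm => h4 t (hT'T t ht) m hm⟩)
  refine false_of_compl hd.sq hd.cen hcomm (P := U.comap π) (P₁ := K) hcP ?_ hcK fun x hx => ?_
  · rw [Subgroup.index_comap_of_surjective _ hd.surj]
    exact h.idx
  · rcases hK x hx with h1 | h1
    · exact Or.inl h1
    · right
      rwa [hd.cen x]


end Cfsg.Agent.H234.RIM
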