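import Cfsg.Agent.H234.RIM.Cover
import Cfsg.Agent.SporadicA.FieldFour

/-!
# S4816, RIM-B-L34: `GL(3,4)` has no double cover with kernel in the commutator subgroup
-/

set_option autoImplicit false
set_option linter.constructorNameAsVariable false
set_option linter.unusedVariables false
set_option linter.unusedSimpArgs false
set_option linter.unnecessarySeqFocus false
set_option linter.style.haveILetI false

namespace Cfsg.Agent.H234.RIM.GLThree

open Matrix Subgroup Cfsg.Agent.SporadicA.FieldFour Cfsg.Agent.KFacts.Mult.WeightsTwo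
open Cfsg.Agent.H234.RIM
open scoped commutatorElement

/-- matrices -/
abbrev Mt : Type := Matrix (Fin 3) (Fin 3) F4

/-- the group `GL(3,4)` -/
abbrev G3 : Type := GL (Fin 3) F4

theorem gext {A B : G3} (h : (A : Mt) = (B : Mt)) : A = B := Units.ext h

theorem two_eq_zero : ∀ a : F4, a + a = 0 := by decide

theorem neg_eq : ∀ a : F4, -a = a := by decide

/-- upper unitriangular matrices -/
def u (x y z : F4) : G3 where
  val := !![1, x, y; 0, 1, z; 0, 0, 1]
  inv := !![1, x, x * z + y; 0, 1, z; 0, 0, 1]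
  val_inv := by
    ext i j
    fin_cases i <;> fin_cases j <;> simp [Matrix.mul_apply, Fin.sum_univ_three] <;> revert x y z <;> decide
  inv_val := by
    ext i j
    fin_cases i <;> fin_cases j <;> simp [Matrix.mul_apply, Fin.sum_univ_three] <;> revert x y z <;> decide

/-- diagonal matrices -/
def d (a b c : F4ˣ) : G3 where
  val := !![(a : F4), 0, 0; 0, b, 0; 0, 0, c]
  inv := !![((a⁻¹ : F4ˣ) : F4), 0, 0; 0, (b⁻¹ : F4ˣ), 0; 0, 0, (c⁻¹ : F4ˣ)]
  val_inv := by
    ext i j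
    fin_cases i <;> fin_cases j <;> simp [Matrix.mul_apply, Fin.sum_univ_three]
  inv_val := by
    ext i j
    fin_cases i <;> fin_cases j <;> simp [Matrix.mul_apply, Fin.sum_univ_three]

theorem u_mul (x y z x' y' z' : F4) : u x y z * u x' y' z' = u (x + x') (y' + x * z' + y) (z + z') := by
  apply gext
  rw [Units.val_mul]
  ext i j
  fin_cases i <;> fin_cases j <;> simp [u, Matrix.mul_apply, Fin.sum_univ_three] <;>
    revert x y z x' y' z' <;> decide

theorem u_one : u 0 0 0 = 1 := by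
  apply gext
  ext i j
  fin_cases i <;> fin_cases j <;> simp [u]

theorem u_inj {x y z x' y' z' : F4} (h : u x y z = u x' y' z') : x = x' ∧ y = y' ∧ z = z' := by
  have h1 : (u x y z : Mt) = (u x' y' z' : Mt) := congrArg Units.val h
  have a := congrFun (congrFun h1 0) 1
  have b := congrFun (congrFun h1 0) 2
  have c := congrFun (congrFun h1 1) 2
  simp [u] at a b c
  exact ⟨a, b, c⟩

theorem d_mul (a b c a' b' c' : F4ˣ) : d a b c * d a' b' c' = d (a * a') (b * b') (c * c') := by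
  apply gext
  rw [Units.val_mul]
  ext i j
  fin_cases i <;> fin_cases j <;> simp [d, Matrix.mul_apply, Fin.sum_univ_three]

theorem d_one : d 1 1 1 = 1 := by
  apply gext
  ext i j
  fin_cases i <;> fin_cases j <;> simp [d]

theorem d_inv (a b c : F4ˣ) : (d a b c)⁻¹ = d a⁻¹ b⁻¹ c⁻¹ := by
  rw [inv_eq_iff_mul_eq_one, d_mul, mul_inv_cancel, mul_inv_cancel, mul_inv_cancel, d_one]

theorem d_u (a b c : F4ˣ) (x y z : F4) :
    d a b c * u x y z = u (a * (b⁻¹ : F4ˣ) * x) (a * (c⁻¹ : F4ˣ) * y) (b * (c⁻¹ : F4ˣ) * z) * d a b c := by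
  apply gext
  rw [Units.val_mul, Units.val_mul]
  have ha0 : (a : F4) ≠ 0 := a.ne_zero
  have hb0 : (b : F4) ≠ 0 := b.ne_zero
  have hc0 : (c : F4) ≠ 0 := c.ne_zero
  ext i j
  fin_cases i <;> fin_cases j <;> simp [u, d, Matrix.mul_apply, Fin.sum_univ_three] <;> field_simp

/-- the group of upper unitriangular matrices -/
def U : Subgroup G3 where
  carrier := {g | ∃ x y z, g = u x y z}
  one_mem' := ⟨0, 0, 0, u_one.symm⟩
  mul_mem' := by
    rintro _ _ ⟨x, y, z, rfl⟩ ⟨x', y', z', rfl⟩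
    exact ⟨_, _, _, u_mul ..⟩
  inv_mem' := by
    rintro _ ⟨x, y, z, rfl⟩
    refine ⟨x, x * z + y, z, ?_⟩
    rw [inv_eq_iff_mul_eq_one, u_mul, ← u_one, two_eq_zero, two_eq_zero]
    congr 1
    revert x y z
    decide

theorem mem_U {g : G3} : g ∈ U ↔ ∃ x y z, g = u x y z := Iff.rfl

/-- the group of diagonal matrices -/
def T : Subgroup G3 where
  carrier := {g | ∃ a b c, g = d a b c}
  one_mem' := ⟨1, 1, 1, d_one.symm⟩
  mul_mem' := by
    rintro _ _ ⟨x, y, z, rfl⟩ ⟨x', y', z', rfl⟩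
    exact ⟨_, _, _, d_mul ..⟩
  inv_mem' := by
    rintro _ ⟨x, y, z, rfl⟩
    exact ⟨_, _, _, d_inv ..⟩

theorem d_mem (a b c : F4ˣ) : d a b c ∈ T := ⟨a, b, c, rfl⟩

/-- the root groups -/
def V (i : Fin 3) : Subgroup G3 where
  carrier := {g | ∃ s : F4, g = match i with
    | 0 => u s 0 0
    | 1 => u 0 s 0
    | 2 => u 0 0 s}
  one_mem' := by
    refine ⟨0, ?_⟩
    fin_cases i <;> exact u_one.symm
  mul_mem' := by
    rintro _ _ ⟨s, rfl⟩ ⟨t, rfl⟩
    refine ⟨s + t, ?_⟩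
    fin_cases i
    · change u s 0 0 * u t 0 0 = u (s + t) 0 0
      rw [u_mul]; simp
    · change u 0 s 0 * u 0 t 0 = u 0 (s + t) 0
      rw [u_mul]; simp [add_comm]
    · change u 0 0 s * u 0 0 t = u 0 0 (s + t)
      rw [u_mul]; simp
  inv_mem' := by
    rintro _ ⟨s, rfl⟩
    refine ⟨s, ?_⟩
    rw [inv_eq_iff_mul_eq_one]
    fin_cases i
    · change u s 0 0 * u s 0 0 = 1
      rw [u_mul, ← u_one]; simp [two_eq_zero]
    · change u 0 s 0 * u 0 s 0 = 1
      rw [u_mul, ← u_one]; simp [two_eq_zero]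
    · change u 0 0 s * u 0 0 s = 1
      rw [u_mul, ← u_one]; simp [two_eq_zero]

theorem mem_V0 {g : G3} : g ∈ V 0 ↔ ∃ s : F4, g = u s 0 0 := Iff.rfl
theorem mem_V1 {g : G3} : g ∈ V 1 ↔ ∃ s : F4, g = u 0 s 0 := Iff.rfl
theorem mem_V2 {g : G3} : g ∈ V 2 ↔ ∃ s : F4, g = u 0 0 s := Iff.rfl

theorem card_U : Nat.card U = 64 := by
  have h : Function.Bijective (fun p : F4 × F4 × F4 => (⟨u p.1 p.2.1 p.2.2, _, _, _, rfl⟩ : U)) := by
    constructor
    · rintro ⟨x, y, z⟩ ⟨x', y', z'⟩ h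
      obtain ⟨rfl, rfl, rfl⟩ := u_inj (congrArg Subtype.val h)
      rfl
    · rintro ⟨_, x, y, z, rfl⟩
      exact ⟨(x, y, z), rfl⟩
  rw [← Nat.card_congr (Equiv.ofBijective _ h), Nat.card_eq_fintype_card]
  rfl

theorem card_G3 : Nat.card G3 = 181440 := by
  rw [Matrix.card_GL_field, Fin.prod_univ_three, F4.card_eq]
  rfl

theorem idx : ¬ 2 ∣ U.index := by
  have h := U.card_mul_index
  rw [card_U, card_G3] at h
  omega

theorem conj_u (a b c : F4ˣ) (x y z : F4) :
    d a b c * u x y z * (d a b c)⁻¹ =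
      u (a * (b⁻¹ : F4ˣ) * x) (a * (c⁻¹ : F4ˣ) * y) (b * (c⁻¹ : F4ˣ) * z) := by
  rw [d_u, mul_inv_cancel_right]

theorem comm_iff (a b c : F4ˣ) (x y z : F4) : d a b c * u x y z = u x y z * d a b c ↔
    (a * (b⁻¹ : F4ˣ) * x = x) ∧ (a * (c⁻¹ : F4ˣ) * y = y) ∧ (b * (c⁻¹ : F4ˣ) * z = z) := by
  rw [d_u, mul_left_inj]
  constructor
  · exact u_inj
  · rintro ⟨h1, h2, h3⟩
    rw [h1, h2, h3]

/-- a primitive cube root of unity -/
def om : F4ˣ := ⟨F4.w, F4.v, by decide, by decide⟩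

theorem om_fix : ∀ x : F4, (om : F4) * x = x → x = 0 := by
  intro x
  show F4.w * x = x → x = 0
  revert x
  decide

theorem cube_units (a : F4ˣ) : a ^ 3 = 1 := by
  apply Units.ext
  rw [Units.val_pow_eq_pow_val, Units.val_one]
  have key : ∀ x : F4, x ≠ 0 → x ^ 3 = 1 := by
    intro x hx
    rw [pow_three]
    revert x
    decide
  exact key _ a.ne_zero

theorem pow3_T {g : G3} (hg : g ∈ T) : g ^ 3 = 1 := by
  obtain ⟨a, b, c, rfl⟩ := hg
  rw [pow_three, d_mul, d_mul, ← pow_three, ← pow_three, ← pow_three, cube_units, cube_units, cube_units,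
    d_one]

theorem pg_U : IsPGroup 2 U := IsPGroup.of_card (n := 6) (by rw [card_U]; rfl)

theorem pg_T : IsPGroup 3 T := by
  rintro ⟨g, hg⟩
  exact ⟨1, Subtype.ext (by rw [pow_one]; exact pow3_T hg)⟩

theorem fixT : ∀ g ∈ U, (∀ t ∈ T, t * g = g * t) → g = 1 := by
  rintro _ ⟨x, y, z, rfl⟩ h
  have h1 := (comm_iff _ _ _ x y z).mp (h _ (d_mem om 1 1))
  have h2 := (comm_iff _ _ _ x y z).mp (h _ (d_mem 1 om 1))
  obtain ⟨a1, a2, -⟩ := h1
  obtain ⟨-, -, a3⟩ := h2
  simp only [inv_one, Units.val_one, mul_one] at a1 a2 a3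
  rw [om_fix _ a1, om_fix _ a2, om_fix _ a3, u_one]

theorem VT (i : Fin 3) : ∀ t ∈ T, ∀ v ∈ V i, t * v * t⁻¹ ∈ V i := by
  rintro _ ⟨a, b, c, rfl⟩ v hv
  fin_cases i
  · obtain ⟨s, rfl⟩ := mem_V0.mp hv
    refine mem_V0.mpr ⟨a * (b⁻¹ : F4ˣ) * s, ?_⟩
    rw [conj_u, mul_zero, mul_zero]
  · obtain ⟨s, rfl⟩ := mem_V1.mp hv
    refine mem_V1.mpr ⟨a * (c⁻¹ : F4ˣ) * s, ?_⟩
    rw [conj_u, mul_zero, mul_zero]
  · obtain ⟨s, rfl⟩ := mem_V2.mp hv
    refine mem_V2.mpr ⟨b * (c⁻¹ : F4ˣ) * s, ?_⟩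
    rw [conj_u, mul_zero, mul_zero]

theorem VU (i : Fin 3) : V i ≤ U := by
  intro v hv
  fin_cases i
  · obtain ⟨s, rfl⟩ := mem_V0.mp hv
    exact ⟨_, _, _, rfl⟩
  · obtain ⟨s, rfl⟩ := mem_V1.mp hv
    exact ⟨_, _, _, rfl⟩
  · obtain ⟨s, rfl⟩ := mem_V2.mp hv
    exact ⟨_, _, _, rfl⟩

/-- the weight hypotheses -/
theorem wh : WHyp 3 U T V where
  pg := pg_U
  idx := idx
  tp := pg_T
  odd := by decide
  UT := by
    rintro _ ⟨a, b, c, rfl⟩ _ ⟨x, y, z, rfl⟩
    exact ⟨_, _, _, conj_u ..⟩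
  VU := VU
  VT := VT
  gen := by
    rintro _ ⟨x, y, z, rfl⟩
    have h : u x y z = u 0 0 z * u 0 y 0 * u x 0 0 := by
      rw [u_mul, u_mul]; simp
    rw [h]
    exact mul_mem (mul_mem (mem_iSup_of_mem 2 (mem_V2.mpr ⟨z, rfl⟩)) (mem_iSup_of_mem 1 (mem_V1.mpr ⟨y, rfl⟩)))
      (mem_iSup_of_mem 0 (mem_V0.mpr ⟨x, rfl⟩))
  fix := by
    rintro i _ ⟨x, y, z, rfl⟩ h
    fin_cases i
    · have h1 := h (d 1 1 om) (d_mem ..) (by
        rintro v hv
        obtain ⟨s, rfl⟩ := mem_V0.mp hv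
        rw [comm_iff]; simp)
      rw [comm_iff] at h1
      obtain ⟨-, a2, a3⟩ := h1
      simp only [inv_one, Units.val_one, mul_one, one_mul] at a2 a3
      have key : ∀ x : F4, ((om⁻¹ : F4ˣ) : F4) * x = x → x = 0 := by
        intro x
        show F4.v * x = x → x = 0
        revert x
        decide
      rw [key _ a2, key _ a3]
      exact mem_V0.mpr ⟨_, rfl⟩
    · have h1 := h (d 1 om 1) (d_mem ..) (by
        rintro v hv
        obtain ⟨s, rfl⟩ := mem_V1.mp hv
        rw [comm_iff]; simp)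
      rw [comm_iff] at h1
      obtain ⟨a1, -, a3⟩ := h1
      simp only [inv_one, Units.val_one, mul_one, one_mul] at a1 a3
      have key : ∀ x : F4, ((om⁻¹ : F4ˣ) : F4) * x = x → x = 0 := by
        intro x
        show F4.v * x = x → x = 0
        revert x
        decide
      rw [key _ a1, om_fix _ a3]
      exact mem_V1.mpr ⟨_, rfl⟩
    · have h1 := h (d om 1 1) (d_mem ..) (by
        rintro v hv
        obtain ⟨s, rfl⟩ := mem_V2.mp hv
        rw [comm_iff]; simp)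
      rw [comm_iff] at h1
      obtain ⟨a1, a2, -⟩ := h1
      simp only [inv_one, Units.val_one, mul_one, one_mul] at a1 a2
      rw [om_fix _ a1, om_fix _ a2]
      exact mem_V2.mpr ⟨_, rfl⟩
  fixT := fixT

/-- lower root elements `1 + s E_21` -/
def l21 (s : F4) : G3 where
  val := !![1, 0, 0; 0, 1, 0; 0, s, 1]
  inv := !![1, 0, 0; 0, 1, 0; 0, s, 1]
  val_inv := by
    ext i j
    fin_cases i <;> fin_cases j <;> simp [Matrix.mul_apply, Fin.sum_univ_three] <;> revert s <;> decide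
  inv_val := by
    ext i j
    fin_cases i <;> fin_cases j <;> simp [Matrix.mul_apply, Fin.sum_univ_three] <;> revert s <;> decide

/-- lower root elements `1 + s E_10` -/
def l10 (s : F4) : G3 where
  val := !![1, 0, 0; s, 1, 0; 0, 0, 1]
  inv := !![1, 0, 0; s, 1, 0; 0, 0, 1]
  val_inv := by
    ext i j
    fin_cases i <;> fin_cases j <;> simp [Matrix.mul_apply, Fin.sum_univ_three] <;> revert s <;> decide
  inv_val := by
    ext i j
    fin_cases i <;> fin_cases j <;> simp [Matrix.mul_apply, Fin.sum_univ_three] <;> revert s <;> decide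

theorem V_le (i : Fin 3) : V i ≤ ⁅centralizer (V i : Set G3), centralizer (V i : Set G3)⁆ := by
  intro v hv
  fin_cases i
  · obtain ⟨s, rfl⟩ := mem_V0.mp hv
    have h1 : u s 0 0 = ⁅u 0 s 0, l21 1⁆ := by
      rw [commutatorElement_def]
      rw [eq_mul_inv_iff_mul_eq, eq_mul_inv_iff_mul_eq]
      apply gext
      rw [Units.val_mul, Units.val_mul, Units.val_mul]
      ext i j
      fin_cases i <;> fin_cases j <;> simp [u, l21, Matrix.mul_apply, Fin.sum_univ_three]
    have h2 : u 0 s 0 ∈ centralizer (V 0 : Set G3) := by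
      rw [mem_centralizer_iff]
      rintro _ ⟨t, rfl⟩
      show u t 0 0 * u 0 s 0 = u 0 s 0 * u t 0 0
      rw [u_mul, u_mul]; simp
    have h3 : l21 1 ∈ centralizer (V 0 : Set G3) := by
      rw [mem_centralizer_iff]
      rintro _ ⟨t, rfl⟩
      show u t 0 0 * l21 1 = l21 1 * u t 0 0
      apply gext
      rw [Units.val_mul, Units.val_mul]
      ext i j
      fin_cases i <;> fin_cases j <;> simp [u, l21, Matrix.mul_apply, Fin.sum_univ_three]
    show u s 0 0 ∈ _
    rw [h1]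
    exact commutator_mem_commutator h2 h3
  · obtain ⟨s, rfl⟩ := mem_V1.mp hv
    have h1 : u 0 s 0 = ⁅u s 0 0, u 0 0 1⁆ := by
      rw [commutatorElement_def]
      rw [eq_mul_inv_iff_mul_eq, eq_mul_inv_iff_mul_eq]
      rw [u_mul, u_mul, u_mul]
      simp
    have h2 : u s 0 0 ∈ centralizer (V 1 : Set G3) := by
      rw [mem_centralizer_iff]
      rintro _ ⟨t, rfl⟩
      show u 0 t 0 * u s 0 0 = u s 0 0 * u 0 t 0
      rw [u_mul, u_mul]; simp
    have h3 : u 0 0 1 ∈ centralizer (V 1 : Set G3) := by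
      rw [mem_centralizer_iff]
      rintro _ ⟨t, rfl⟩
      show u 0 t 0 * u 0 0 1 = u 0 0 1 * u 0 t 0
      rw [u_mul, u_mul]; simp
    show u 0 s 0 ∈ _
    rw [h1]
    exact commutator_mem_commutator h2 h3
  · obtain ⟨s, rfl⟩ := mem_V2.mp hv
    have h1 : u 0 0 s = ⁅l10 s, u 0 1 0⁆ := by
      rw [commutatorElement_def]
      rw [eq_mul_inv_iff_mul_eq, eq_mul_inv_iff_mul_eq]
      apply gext
      rw [Units.val_mul, Units.val_mul, Units.val_mul]
      ext i j
      fin_cases i <;> fin_cases j <;> simp [u, l10, Matrix.mul_apply, Fin.sum_univ_three]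
    have h2 : l10 s ∈ centralizer (V 2 : Set G3) := by
      rw [mem_centralizer_iff]
      rintro _ ⟨t, rfl⟩
      show u 0 0 t * l10 s = l10 s * u 0 0 t
      apply gext
      rw [Units.val_mul, Units.val_mul]
      ext i j
      fin_cases i <;> fin_cases j <;> simp [u, l10, Matrix.mul_apply, Fin.sum_univ_three]
    have h3 : u 0 1 0 ∈ centralizer (V 2 : Set G3) := by
      rw [mem_centralizer_iff]
      rintro _ ⟨t, rfl⟩
      show u 0 0 t * u 0 1 0 = u 0 1 0 * u 0 0 t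
      rw [u_mul, u_mul]; simp
    show u 0 0 s ∈ _
    rw [h1]
    exact commutator_mem_commutator h2 h3

/-- `GL(3,4)` has no double cover with kernel in the commutator subgroup. -/
theorem false_of_dbl {L : Type*} [Group L] [Finite L] {π : L →* G3} {c : L} (hd : Dbl0 π c)
    (hc : c ∈ commutator L) : False := by
  haveI : Fact (Nat.Prime 3) := ⟨Nat.prime_three⟩
  refine false_of_weights hd hc wh fun i => ?_
  refine spl_of_comm hd (by decide) pg_T (pg_U.to_le (VU i)) (VT i) (fun v hv h => fixT v (VU i hv) h) ?_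
  intro x y hx hy
  exact comm_of_le_commutator hd (V_le i) hx hy

end Cfsg.Agent.H234.RIM.GLThree
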