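import Cfsg.Agent.H234.RIM.GLThree
import Cfsg.Agent.StdL3.OuterQuot

/-!
# S4816, RIM-B-L34: `L₃(4)` extended by a diagonal automorphism of order three

`l34`: if `G` has a normal subgroup `E` which is perfect, with `E / (E ∩ Z) ≅ L₃(4)`, `Z ≤ Z(G)` of order prime to
three, `C_G(E) ≤ Z` and `3 ∣ |G : E Z|`, then `E ∩ Z = 1`.
-/

set_option autoImplicit false
set_option linter.constructorNameAsVariable false
set_option linter.unusedVariables false
set_option linter.style.haveILetI false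
set_option linter.unusedFintypeInType false

namespace Cfsg.Agent.H234.RIM.L34

open Subgroup Cfsg.Agent.H234.RIM Cfsg.Agent.H234.RIM.GLThree
open Cfsg.Agent.StdL3.OuterQuot Cfsg.Agent.StdL3.OuterMat Cfsg.Agent.ONType.OuterL
open Cfsg.Agent.ONType.Psl hiding N
open Cfsg.Agent.ClassicalGeometry.AutPSL.Root
open Cfsg.Agent.ClassicalGeometry.AutPSL.Auto
open Cfsg.Agent.ClassicalGeometry.AutPSL.Main
open Cfsg.Agent.SporadicA.FieldFour
open scoped commutatorElement

universe u v

section general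

theorem nrm {G : Type*} [Group G] {Z : Subgroup G} (hZ : Z ≤ center G) : Z.Normal := ⟨fun n hn g => by
  have := mem_center_iff.mp (hZ hn) g
  rw [this, mul_inv_cancel_right]
  exact hn⟩

/-- transfer into an abelian subgroup -/
theorem pow_index_eq_one {L : Type*} [Group L] [Finite L] {P : Subgroup L}
    (hab : ∀ x ∈ P, ∀ y ∈ P, x * y = y * x) {c : L} (cen : ∀ x, c * x = x * c)
    (hc : c ∈ commutator L) : c ^ P.index = 1 := by
  letI : CommGroup P := { (inferInstance : Group P) with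
    mul_comm := fun x y => Subtype.ext (hab x x.2 y y.2) }
  have h1 : ∀ (k : ℕ) (g₀ : L), g₀⁻¹ * c ^ k * g₀ ∈ P → g₀⁻¹ * c ^ k * g₀ = c ^ k := by
    intro k g₀ _
    have h2 : Commute c g₀ := cen g₀
    rw [mul_assoc, (h2.pow_left k).eq]; group
  have h3 := MonoidHom.transfer_eq_pow (MonoidHom.id P) c h1
  have h4 : MonoidHom.transfer (MonoidHom.id P) c = 1 := by
    exact Abelianization.commutator_subset_ker (MonoidHom.transfer (MonoidHom.id P)) hc
  rw [h4] at h3
  exact (congrArg Subtype.val h3).symm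

/-- A central element of prime order `r` in the commutator subgroup forces `r ^ 2` to divide the order of
the central quotient. -/
theorem eq_one_of_sq {L : Type*} [Group L] [Finite L] {Z : Subgroup L} (hZ : Z ≤ center L) {r : ℕ}
    (hr : r.Prime) (hidx : ¬ r ^ 2 ∣ Z.index) {c : L} (hcZ : c ∈ center L) (hc : c ∈ commutator L)
    (hcr : c ^ r = 1) : c = 1 := by
  haveI : Fact r.Prime := ⟨hr⟩
  obtain ⟨P⟩ : Nonempty (Sylow r L) := inferInstance
  haveI hZn : Z.Normal := nrm hZ
  have h1 : (Z.subgroupOf P).index ∣ Z.index := relIndex_dvd_index_of_normal Z P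
  obtain ⟨n, hn⟩ := P.2.index (Z.subgroupOf (P : Subgroup L))
  rw [hn] at h1
  have hn1 : n ≤ 1 := by
    by_contra h
    exact hidx ((pow_dvd_pow r (by omega)).trans h1)
  have hcyc : IsCyclic (P ⧸ Z.subgroupOf P) := by
    rcases Nat.le_one_iff_eq_zero_or_eq_one.mp hn1 with rfl | rfl
    · rw [pow_zero] at hn
      haveI : Subsingleton (P ⧸ Z.subgroupOf P) := by
        rw [← Finite.card_le_one_iff_subsingleton]
        exact hn.le
      exact isCyclic_of_subsingleton
    · rw [pow_one] at hn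
      exact isCyclic_of_prime_card (p := r) hn
  have hab : ∀ x ∈ (P : Subgroup L), ∀ y ∈ (P : Subgroup L), x * y = y * x := by
    intro x hx y hy
    have h := (MonoidHom.isMulCommutative_of_isCyclic_of_ker_le_center
      (QuotientGroup.mk' (Z.subgroupOf (P : Subgroup L))) (by
      rw [QuotientGroup.ker_mk']
      intro z hz
      rw [mem_center_iff]
      intro g
      exact Subtype.ext (mem_center_iff.mp (hZ hz) g))).is_comm.comm ⟨x, hx⟩ ⟨y, hy⟩
    exact congrArg Subtype.val h
  have h2 := pow_index_eq_one hab (fun x => (mem_center_iff.mp hcZ x).symm) hc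
  have h3 : ¬ r ∣ (P : Subgroup L).index := P.not_dvd_index
  have h4 : orderOf c ∣ r := orderOf_dvd_of_pow_eq_one hcr
  have h5 : orderOf c ∣ (P : Subgroup L).index := orderOf_dvd_of_pow_eq_one h2
  rcases (Nat.dvd_prime hr).mp h4 with h | h
  · exact orderOf_eq_one_iff.mp h
  · rw [h] at h5; exact absurd h5 h3

/-- passing to a double cover -/
theorem exists_dbl {G : Type u} {X : Type v} [Group G] [Finite G] [Group X] (f : G →* X)
    (hf : Function.Surjective f) (hker : f.ker ≤ center G) (hcomm : f.ker ≤ commutator G)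
    (hp : IsPGroup 2 f.ker) (hne : f.ker ≠ ⊥) :
    ∃ (L : Type u) (_ : Group L) (_ : Finite L) (π : L →* X) (c : L), Dbl0 π c ∧ c ∈ commutator L := by
  haveI : Fact (Nat.Prime 2) := ⟨Nat.prime_two⟩
  obtain ⟨n, hn⟩ := IsPGroup.iff_card.mp hp
  have hn0 : n ≠ 0 := by
    rintro rfl
    rw [pow_zero] at hn
    exact hne (Subgroup.card_eq_one.mp hn)
  obtain ⟨K1, hK1⟩ := Sylow.exists_subgroup_card_pow_prime 2 (n := n - 1) (G := f.ker)
    (by rw [hn]; exact pow_dvd_pow 2 (by omega))
  have hidx : K1.index = 2 := by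
    have h := K1.card_mul_index
    rw [hK1, hn] at h
    have e : 2 ^ n = 2 ^ (n - 1) * 2 := by rw [← pow_succ]; congr 1; omega
    rw [e] at h
    exact Nat.eq_of_mul_eq_mul_left (by positivity) h
  set K0 : Subgroup G := K1.map f.ker.subtype with hK0
  have hK0le : K0 ≤ f.ker := map_subtype_le _
  haveI : K0.Normal := nrm (hK0le.trans hker)
  have hK0mem : ∀ x : f.ker, (x : G) ∈ K0 ↔ x ∈ K1 := by
    intro x
    constructor
    · rintro ⟨y, hy, hyx⟩
      have : y = x := Subtype.ext hyx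
      rwa [← this]
    · intro h
      exact ⟨x, h, rfl⟩
  obtain ⟨k, hk⟩ : ∃ k : f.ker, k ∉ K1 := by
    by_contra h
    push Not at h
    have h1 : K1 = ⊤ := eq_top_iff.mpr fun x _ => h x
    rw [h1, index_top] at hidx
    omega
  have hcase : ∀ x : f.ker, x ∉ K1 → k⁻¹ * x ∈ K1 := by
    intro x hx
    rw [mul_mem_iff_of_index_two hidx, inv_mem_iff]
    exact ⟨fun h => absurd h hk, fun h => absurd h hx⟩
  have hkk : k * k ∈ K1 := by
    rw [mul_mem_iff_of_index_two hidx]
  refine ⟨G ⧸ K0, inferInstance, inferInstance, QuotientGroup.lift K0 f hK0le,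
    QuotientGroup.mk' K0 (k : G), ⟨?_, ?_, ?_, ?_, ?_⟩, ?_⟩
  · intro h
    rw [QuotientGroup.mk'_apply, QuotientGroup.eq_one_iff, hK0mem] at h
    exact hk h
  · rw [← map_mul, QuotientGroup.mk'_apply, QuotientGroup.eq_one_iff]
    exact (hK0mem (k * k)).mpr hkk
  · intro x
    obtain ⟨x, rfl⟩ := QuotientGroup.mk'_surjective K0 x
    rw [← map_mul, ← map_mul, mem_center_iff.mp (hker k.2) x]
  · intro x
    obtain ⟨g, hg⟩ := hf x
    exact ⟨QuotientGroup.mk' K0 g, hg⟩
  · intro x
    obtain ⟨x, rfl⟩ := QuotientGroup.mk'_surjective K0 x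
    constructor
    · intro h
      have hx : x ∈ f.ker := h
      by_cases hx1 : (⟨x, hx⟩ : f.ker) ∈ K1
      · left
        rw [QuotientGroup.mk'_apply, QuotientGroup.eq_one_iff]
        exact (hK0mem ⟨x, hx⟩).mpr hx1
      · right
        symm
        rw [QuotientGroup.mk'_apply, QuotientGroup.mk'_apply, QuotientGroup.eq]
        exact (hK0mem (k⁻¹ * ⟨x, hx⟩)).mpr (hcase _ hx1)
    · rintro (h | h)
      · rw [h, map_one]
      · rw [h]
        exact k.2
  · have h1 : (commutator G).map (QuotientGroup.mk' K0) ≤ commutator (G ⧸ K0) := by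
      rw [_root_.commutator_def, _root_.commutator_def, map_commutator]
      exact commutator_mono le_top le_top
    exact h1 (mem_map_of_mem _ (hcomm k.2))

/-- the automorphism of the image -/
noncomputable def ind {E : Type u} {S : Type v} [Group E] [Group S] (π : E →* S)
    (hs : Function.Surjective π) (a : MulAut E) (ha : ∀ e, π (a e) = 1 ↔ π e = 1) : MulAut S :=
  MulEquiv.ofBijective (MonoidHom.liftOfSurjective π hs ⟨π.comp a.toMonoidHom, fun e he => (ha e).mpr he⟩) (by
    have key : ∀ e, (MonoidHom.liftOfSurjective π hs ⟨π.comp a.toMonoidHom, fun e he => (ha e).mpr he⟩) (π e) =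
        π (a e) := fun e => MonoidHom.liftOfRightInverse_comp_apply π (Function.surjInv hs)
          (Function.rightInverse_surjInv hs) ⟨π.comp a.toMonoidHom, fun e he => (ha e).mpr he⟩ e
    constructor
    · rw [injective_iff_map_eq_one]
      intro s h
      obtain ⟨e, rfl⟩ := hs s
      rw [key] at h
      exact (ha e).mp h
    · intro s
      obtain ⟨e, rfl⟩ := hs s
      refine ⟨π (a⁻¹ e), ?_⟩
      rw [key]
      congr 1
      exact MulAut.apply_inv_self E a e)

theorem ind_apply {E : Type u} {S : Type v} [Group E] [Group S] (π : E →* S)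
    (hs : Function.Surjective π) (a : MulAut E) (ha : ∀ e, π (a e) = 1 ↔ π e = 1) (e : E) :
    ind π hs a ha (π e) = π (a e) :=
  MonoidHom.liftOfRightInverse_comp_apply π (Function.surjInv hs)
    (Function.rightInverse_surjInv hs) ⟨π.comp a.toMonoidHom, fun e he => (ha e).mpr he⟩ e

/-- commutators do not change under central factors -/
theorem comm_cen {G : Type*} [Group G] {z w : G} (hz : z ∈ center G) (hw : w ∈ center G) (a b : G) :
    ⁅z * a, w * b⁆ = ⁅a, b⁆ := by
  have h1 : ∀ x, x * z = z * x := mem_center_iff.mp hz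
  have h2 : ∀ x, x * w = w * x := mem_center_iff.mp hw
  have h3 : ∀ x, x * z⁻¹ = z⁻¹ * x := mem_center_iff.mp (inv_mem hz)
  rw [commutatorElement_def, commutatorElement_def, mul_inv_rev, mul_inv_rev]
  calc z * a * (w * b) * (a⁻¹ * z⁻¹) * (b⁻¹ * w⁻¹)
      = z * (a * w) * b * (a⁻¹ * z⁻¹) * (b⁻¹ * w⁻¹) := by group
    _ = z * (w * a) * b * (z⁻¹ * a⁻¹) * (b⁻¹ * w⁻¹) := by rw [h2, h3 a⁻¹]
    _ = z * (w * (a * b) * z⁻¹) * a⁻¹ * b⁻¹ * w⁻¹ := by group
    _ = z * (z⁻¹ * (w * (a * b))) * a⁻¹ * b⁻¹ * w⁻¹ := by rw [h3]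
    _ = w * (a * b * a⁻¹ * b⁻¹) * w⁻¹ := by group
    _ = a * b * a⁻¹ * b⁻¹ := by rw [← h2, mul_inv_cancel_right]

end general

/-- the kernel of `GL(3,4) → PGL(3,4)` -/
theorem pow_three_of_lift {A : G3} (h : lift (cj A) = 1) : A ^ 3 = 1 := by
  obtain ⟨r, hr, hA⟩ := scalar_of_lift_cj h
  apply gext
  rw [Units.val_pow_eq_pow_val, hA, smul_pow, one_pow, Units.val_one]
  have key : ∀ x : F4, x ≠ 0 → x ^ 3 = 1 := by
    intro x hx
    rw [pow_three]
    revert x
    decide
  rw [key r hr, one_smul]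

/-- `PGL(3,4)` has no double cover with kernel in the commutator subgroup. -/
theorem false_N {L : Type*} [Group L] [Finite L] {π : L →* N} {c : L} (hd : Dbl0 π c)
    (hc : c ∈ commutator L) : False := by
  let q : G3 →* N := (lift.comp cj).rangeRestrict
  have hq : Function.Surjective q := MonoidHom.rangeRestrict_surjective _
  let M : Subgroup (L × G3) := (π.comp (MonoidHom.fst L G3)).eqLocus (q.comp (MonoidHom.snd L G3))
  let p1 : M →* L := (MonoidHom.fst L G3).comp M.subtype
  let p2 : M →* G3 := (MonoidHom.snd L G3).comp M.subtype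
  have hqk : ∀ A, q A = 1 → A ^ 3 = 1 := fun A hA => pow_three_of_lift (congrArg Subtype.val hA)
  have hp1 : Function.Surjective p1 := fun l => by
    obtain ⟨A, hA⟩ := hq (π l)
    exact ⟨⟨(l, A), hA.symm⟩, rfl⟩
  have hc1 : π c = 1 := (hd.ker c).mpr (Or.inr rfl)
  let c' : M := ⟨(c, 1), by show π c = q 1; rw [hc1, map_one]⟩
  have hd' : Dbl0 p2 c' := by
    refine ⟨?_, ?_, ?_, ?_, ?_⟩
    · intro h
      exact hd.ne (congrArg (fun z : M => z.1.1) h)
    · apply Subtype.ext
      exact Prod.ext hd.sq (mul_one 1)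
    · intro x
      apply Subtype.ext
      refine Prod.ext (hd.cen x.1.1) ?_
      show 1 * x.1.2 = x.1.2 * 1
      rw [one_mul, mul_one]
    · intro A
      obtain ⟨l, hl⟩ := hd.surj (q A)
      exact ⟨⟨(l, A), hl⟩, rfl⟩
    · intro x
      constructor
      · intro h
        have h1 : x.1.2 = 1 := h
        have h2 : π x.1.1 = 1 := by
          have := x.2
          change π x.1.1 = q x.1.2 at this
          rw [this, h1, map_one]
        rcases (hd.ker _).mp h2 with h3 | h3
        · left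
          exact Subtype.ext (Prod.ext h3 h1)
        · right
          exact Subtype.ext (Prod.ext h3 h1)
      · rintro (rfl | rfl)
        · rw [map_one]
        · rfl
  refine GLThree.false_of_dbl hd' ?_
  have h1 : c ∈ (commutator M).map p1 := by
    rw [_root_.commutator_def, map_commutator, Subgroup.map_top_of_surjective _ hp1]
    exact hc
  obtain ⟨z, hz, hzc⟩ := h1
  have h2 : z.1.1 = c := hzc
  have h3 : q z.1.2 = 1 := by
    have := z.2
    change π z.1.1 = q z.1.2 at this
    rw [← this, h2, hc1]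
  have h4 : z ^ 3 = c' := by
    apply Subtype.ext
    refine Prod.ext ?_ ?_
    · show z.1.1 ^ 3 = c
      rw [h2, pow_three, hd.sq, mul_one]
    · show z.1.2 ^ 3 = 1
      exact hqk _ h3
  rw [← h4]
  exact pow_mem hz 3

theorem card_N_dvd : Nat.card N ∣ 181440 := by
  rw [← card_G3]
  exact Subgroup.card_range_dvd (lift.comp cj)

/-- central extensions of `PGL(3,4)` with kernel of order prime to three in the commutator subgroup -/
theorem ker_eq_bot {G : Type u} [Group G] [Finite G] (f : G →* N)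
    (hf : Function.Surjective f) (hker : f.ker ≤ center G) (hcomm : f.ker ≤ commutator G)
    (h3 : ¬ 3 ∣ Nat.card f.ker) : f.ker = ⊥ := by
  by_contra hne
  have hidx : f.ker.index = Nat.card N := by
    rw [index_ker, MonoidHom.range_eq_top.mpr hf, Subgroup.card_top]
  have hp : IsPGroup 2 f.ker := by
    rw [IsPGroup.iff_card]
    have hpr : ∀ r : ℕ, r.Prime → r ∣ Nat.card f.ker → r = 2 := by
      intro r hr hrd
      haveI : Fact r.Prime := ⟨hr⟩
      obtain ⟨x, hx⟩ := exists_prime_orderOf_dvd_card' r hrd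
      have hx1 : (x : G) ≠ 1 := by
        intro h
        have h' : x = 1 := Subtype.ext h
        rw [h', orderOf_one] at hx
        exact hr.one_lt.ne hx
      have hxr : (x : G) ^ r = 1 := by
        rw [← Subgroup.coe_pow, ← hx, pow_orderOf_eq_one]; rfl
      by_contra hr2
      have hr3 : r ≠ 3 := by
        rintro rfl
        exact h3 hrd
      have h5 : r ^ 2 ∣ f.ker.index := by
        by_contra h
        exact hx1 (eq_one_of_sq hker hr h (hker x.2) (hcomm x.2) hxr)
      rw [hidx] at h5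
      have h6 : r ^ 2 ∣ 181440 := h5.trans card_N_dvd
      have h7 : r ∣ 2 ^ 6 * (3 ^ 4 * (5 * 7)) := by
        have : (2 ^ 6 * (3 ^ 4 * (5 * 7)) : ℕ) = 181440 := by norm_num
        rw [this]
        exact (dvd_pow_self r two_ne_zero).trans h6
      rcases (Nat.Prime.dvd_mul hr).mp h7 with h | h
      · exact hr2 ((Nat.prime_dvd_prime_iff_eq hr Nat.prime_two).mp (hr.dvd_of_dvd_pow h))
      rcases (Nat.Prime.dvd_mul hr).mp h with h | h
      · exact hr3 ((Nat.prime_dvd_prime_iff_eq hr Nat.prime_three).mp (hr.dvd_of_dvd_pow h))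
      rcases (Nat.Prime.dvd_mul hr).mp h with h | h
      · rw [(Nat.prime_dvd_prime_iff_eq hr (by norm_num)).mp h] at h6
        revert h6; norm_num
      · rw [(Nat.prime_dvd_prime_iff_eq hr (by norm_num)).mp h] at h6
        revert h6; norm_num
    refine ⟨(Nat.card f.ker).primeFactorsList.length, ?_⟩
    exact Nat.eq_prime_pow_of_unique_prime_dvd Nat.card_pos.ne' fun {d} hd hdd => hpr d hd hdd
  obtain ⟨L, iG, iF, π, c, hd, hc⟩ := exists_dbl f hf hker hcomm hp hne
  exact false_N hd hc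

theorem sq_mem_N (β : MulAut PSL3) : β ^ 2 ∈ N := by
  obtain ⟨A, b, c, rfl⟩ := exists_std_form β
  rw [← QuotientGroup.eq_one_iff, QuotientGroup.mk_pow, QuotientGroup.mk_mul,
    (QuotientGroup.eq_one_iff _).2 (mem_N A), one_mul, ← QuotientGroup.mk_pow, pow_two, ← map_mul,
    std_mul_std]
  have h : std (xor b b) (xor c c) = 1 := by simp [std]
  rw [h, map_one]
  rfl

/-- every element of `L₃(4)` gives an element of `N` -/
theorem conj_mem_N (s : PSL3) : MulAut.conj s ∈ N := by
  obtain ⟨x, rfl⟩ := pr_surjective s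
  have h : ((x : GL (Fin 3) F4) : Matrix (Fin 3) (Fin 3) F4).det = 1 := x.2
  have h1 := lift_cj_of_det h
  have h2 : mkSL (x : GL (Fin 3) F4) h = x := Subtype.ext rfl
  rw [h2] at h1
  rw [← h1]
  exact mem_N _

/-- **(B-L34)** for the fixed field -/
theorem l34_aux {G : Type u} [Group G] [Finite G] (Z E : Subgroup G) (hE : E.Normal) (hperf : ⁅E, E⁆ = E)
    (hZ : Z ≤ Subgroup.center G) (h3Z : ¬ 3 ∣ Nat.card Z) (hC : Subgroup.centralizer (E : Set G) ≤ Z)
    (π : E →* PSL3) (hs : Function.Surjective π) (hk : ∀ e : E, π e = 1 ↔ (e : G) ∈ Z)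
    (h3 : 3 ∣ (E ⊔ Z).index) : ∀ e : E, (e : G) ∈ Z → e = 1 := by
  haveI : Fact (Nat.Prime 3) := ⟨Nat.prime_three⟩
  haveI hZn : Z.Normal := nrm hZ
  have hcoe : ∀ (g : G) (e : E), ((MulAut.conjNormal g e : E) : G) = g * e * g⁻¹ := fun g e => by
    rw [MulAut.conjNormal_apply]
  have ha : ∀ (g : G) (e : E), π (MulAut.conjNormal g e) = 1 ↔ π e = 1 := by
    intro g e
    rw [hk, hk, hcoe]
    constructor
    · intro h
      have := hZn.conj_mem _ h g⁻¹
      simpa [mul_assoc] using this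
    · intro h
      exact hZn.conj_mem _ h g
  let Φ : G →* MulAut PSL3 := MonoidHom.mk' (fun g => ind π hs (MulAut.conjNormal g) (ha g)) (by
    intro g h
    apply MulEquiv.ext
    intro s
    obtain ⟨e, rfl⟩ := hs s
    rw [MulAut.mul_apply, ind_apply, ind_apply, ind_apply, map_mul, MulAut.mul_apply])
  have hΦ : ∀ (g : G) (e : E), Φ g (π e) = π (MulAut.conjNormal g e) := fun g e =>
    ind_apply π hs (MulAut.conjNormal g) (ha g) e
  -- inner automorphisms
  have hΦE : ∀ e : E, Φ e = MulAut.conj (π e) := by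
    intro e
    apply MulEquiv.ext
    intro s
    obtain ⟨x, rfl⟩ := hs s
    rw [hΦ, MulAut.conj_apply, ← map_mul, ← map_inv, ← map_mul]
    congr 1
  -- the kernel
  have hΦZ : ∀ g : G, Φ g = 1 → g ∈ Z := by
    intro g hg
    apply hC
    have h1 : ∀ a ∈ E, ∃ z ∈ Z, g * a * g⁻¹ = z * a := by
      intro a ha'
      have h2 : π (MulAut.conjNormal g ⟨a, ha'⟩) = π ⟨a, ha'⟩ := by
        rw [← hΦ, hg]; rfl
      have h3 : π (MulAut.conjNormal g ⟨a, ha'⟩ * (⟨a, ha'⟩ : E)⁻¹) = 1 := by
        rw [map_mul, map_inv, h2, mul_inv_cancel]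
      rw [hk] at h3
      refine ⟨_, h3, ?_⟩
      rw [Subgroup.coe_mul, hcoe, Subgroup.coe_inv, inv_mul_cancel_right]
    have h2 : E ≤ centralizer ({g} : Set G) := by
      rw [← hperf, commutator_le]
      intro a ha' b hb
      obtain ⟨z, hz, hza⟩ := h1 a ha'
      obtain ⟨w, hw, hwb⟩ := h1 b hb
      rw [mem_centralizer_singleton_iff]
      have h3 : g * ⁅a, b⁆ * g⁻¹ = ⁅a, b⁆ := by
        rw [conjugate_commutatorElement, hza, hwb, comm_cen (hZ hz) (hZ hw)]
      rw [mul_inv_eq_iff_eq_mul] at h3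
      exact h3.symm
    rw [mem_centralizer_iff]
    intro x hx
    exact mem_centralizer_singleton_iff.mp (h2 hx)
  have hΦZ' : ∀ g ∈ Z, Φ g = 1 := by
    intro g hg
    apply MulEquiv.ext
    intro s
    obtain ⟨e, rfl⟩ := hs s
    rw [hΦ, MulAut.one_apply]
    congr 1
    apply Subtype.ext
    rw [hcoe, ← mem_center_iff.mp (hZ hg) e, mul_inv_cancel_right]
  -- a 3-element outside `E Z`
  obtain ⟨P⟩ : Nonempty (Sylow 3 G) := inferInstance
  obtain ⟨g, hgP, hg⟩ : ∃ g ∈ (P : Subgroup G), g ∉ E ⊔ Z := by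
    by_contra h
    push Not at h
    have h1 : (E ⊔ Z).index ∣ (P : Subgroup G).index := index_dvd_of_le h
    exact P.not_dvd_index (h3.trans h1)
  obtain ⟨n, hn⟩ := P.2 ⟨g, hgP⟩
  have hn : g ^ 3 ^ n = 1 := congrArg Subtype.val hn
  have hgN : Φ g ∈ N := by
    obtain ⟨k, hk'⟩ : Odd (3 ^ n) := Odd.pow (by decide)
    have h1 : Φ g * (Φ g ^ 2) ^ k = 1 := by
      rw [← pow_mul, ← pow_succ', ← hk', ← map_pow, hn, map_one]
    rw [eq_inv_of_mul_eq_one_left h1]
    exact inv_mem (pow_mem (sq_mem_N _) k)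
  obtain ⟨A, hA⟩ := hgN
  have hA : lift (cj A) = Φ g := hA
  have hinner : ∀ B : G3, (B : Mt).det = 1 → ∃ e : E, lift (cj B) = Φ e := by
    intro B hB
    obtain ⟨e, he⟩ := hs (pr (mkSL B hB))
    exact ⟨e, by rw [hΦE, he]; exact lift_cj_of_det hB⟩
  have hdet : (A : Mt).det ≠ 1 := by
    intro hB
    obtain ⟨e, he⟩ := hinner A hB
    have h1 : Φ (g * (e : G)⁻¹) = 1 := by rw [map_mul, map_inv, ← hA, he, mul_inv_cancel]
    apply hg
    have h2 : g = (g * (e : G)⁻¹) * e := by group
    rw [h2]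
    exact mul_mem (mem_sup_right (hΦZ _ h1)) (mem_sup_left e.2)
  -- the subgroup
  set G2 : Subgroup G := E ⊔ zpowers g with hG2
  have hEG : E ≤ G2 := le_sup_left
  have hgG : g ∈ G2 := mem_sup_right (mem_zpowers g)
  have hG2N : ∀ x : G2, Φ x ∈ N := by
    intro x
    have : G2 ≤ N.comap Φ := by
      rw [hG2, sup_le_iff, zpowers_le]
      refine ⟨fun e he => ?_, ?_⟩
      · show Φ e ∈ N
        rw [show Φ e = MulAut.conj (π ⟨e, he⟩) from hΦE ⟨e, he⟩]
        exact conj_mem_N _
      · show Φ g ∈ N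
        rw [← hA]; exact mem_N A
    exact this x.2
  let f : G2 →* N := (Φ.comp G2.subtype).codRestrict N hG2N
  have hf : Function.Surjective f := by
    rintro ⟨_, B, rfl⟩
    have h1 : ∀ a b : F4, a ≠ 0 → b ≠ 0 → a ≠ 1 → b = 1 ∨ b = a ∨ b = a * a := by decide
    have hnz : ∀ B : G3, (B : Mt).det ≠ 0 := fun B => by
      have := B.isUnit.map (Matrix.detMonoidHom (n := Fin 3) (R := F4))
      exact this.ne_zero
    obtain ⟨k, hk'⟩ : ∃ k : ℕ, (B : Mt).det = (A : Mt).det ^ k := by
      rcases h1 _ _ (hnz A) (hnz B) hdet with h | h | h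
      · exact ⟨0, by rw [pow_zero]; exact h⟩
      · exact ⟨1, by rw [pow_one]; exact h⟩
      · exact ⟨2, by rw [pow_two]; exact h⟩
    have h2 : ((B * (A ^ k)⁻¹ : G3) : Mt).det = 1 := by
      have h3 : ((B * (A ^ k)⁻¹ : G3) : Mt) * ((A ^ k : G3) : Mt) = (B : Mt) := by
        rw [← Units.val_mul, inv_mul_cancel_right]
      have h4 := congrArg Matrix.det h3
      rw [Matrix.det_mul, Units.val_pow_eq_pow_val, Matrix.det_pow, ← hk'] at h4
      exact mul_right_cancel₀ (hnz B) (by rw [h4, one_mul])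
    obtain ⟨e, he⟩ := hinner _ h2
    refine ⟨⟨(e : G) * g ^ k, mul_mem (hEG e.2) (pow_mem hgG k)⟩, ?_⟩
    apply Subtype.ext
    show Φ ((e : G) * g ^ k) = lift (cj B)
    rw [map_mul, map_pow, ← he, ← hA, ← map_pow, ← map_pow, ← map_mul, ← map_mul, inv_mul_cancel_right]
  have hfk : ∀ x : G2, x ∈ f.ker → (x : G) ∈ Z ∧ (x : G) ∈ E := by
    intro x hx
    have h1 : (x : G) ∈ Z := hΦZ _ (congrArg Subtype.val (MonoidHom.mem_ker.mp hx))
    refine ⟨h1, ?_⟩
    obtain ⟨e, he, y, hy, hxy⟩ := (mem_sup_of_normal_left (s := E) (t := zpowers g) (x := (x : G))).mp x.2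
    obtain ⟨k, rfl⟩ := mem_zpowers_iff.mp hy
    have h2 : ((x : G) : G ⧸ E) = ((g : G) : G ⧸ E) ^ k := by
      rw [← hxy, QuotientGroup.mk_mul, (QuotientGroup.eq_one_iff e).mpr he, one_mul, QuotientGroup.mk_zpow]
    have h3' : ((x : G) : G ⧸ E) ^ 3 ^ n = 1 := by
      rw [h2, ← zpow_natCast, ← zpow_mul, mul_comm, zpow_mul, zpow_natCast, ← QuotientGroup.mk_pow, hn,
        QuotientGroup.mk_one, one_zpow]
    have h4 : ((x : G) : G ⧸ E) ^ Nat.card Z = 1 := by
      rw [← QuotientGroup.mk_pow]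
      have : (x : G) ^ Nat.card Z = 1 := by
        have := pow_card_eq_one' (G := Z) (x := ⟨x, h1⟩)
        exact congrArg Subtype.val this
      rw [this]; rfl
    have h5 := Nat.dvd_gcd (orderOf_dvd_of_pow_eq_one h3') (orderOf_dvd_of_pow_eq_one h4)
    have h6 : Nat.gcd (3 ^ n) (Nat.card Z) = 1 :=
      Nat.Coprime.pow_left n ((Nat.Prime.coprime_iff_not_dvd Nat.prime_three).mpr h3Z)
    rw [h6, Nat.dvd_one, orderOf_eq_one_iff, QuotientGroup.eq_one_iff] at h5
    exact h5
  have hbot : f.ker = ⊥ := by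
    refine ker_eq_bot f hf ?_ ?_ ?_
    · intro x hx
      rw [mem_center_iff]
      intro y
      exact Subtype.ext (mem_center_iff.mp (hZ (hfk x hx).1) y)
    · intro x hx
      have h1 : (x : G) ∈ ⁅G2, G2⁆ := by
        have h2 : (x : G) ∈ ⁅E, E⁆ := by rw [hperf]; exact (hfk x hx).2
        exact commutator_mono hEG hEG h2
      have h2 : ⁅G2, G2⁆ = (commutator G2).map G2.subtype := by
        rw [_root_.commutator_def, map_commutator, ← MonoidHom.range_eq_map, Subgroup.range_subtype]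
      rw [h2] at h1
      obtain ⟨y, hy, hyx⟩ := h1
      have : y = x := Subtype.ext hyx
      rwa [← this]
    · intro h
      apply h3Z
      have h1 : Nat.card f.ker = Nat.card (f.ker.map G2.subtype) :=
        (Subgroup.card_map_of_injective G2.subtype_injective).symm
      have h2 : f.ker.map G2.subtype ≤ Z := by
        rintro _ ⟨x, hx, rfl⟩
        exact (hfk x hx).1
      exact (h1 ▸ h).trans (card_dvd_of_le h2)
  intro e he
  have h1 : (⟨e, hEG e.2⟩ : G2) ∈ f.ker := by
    rw [MonoidHom.mem_ker]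
    apply Subtype.ext
    exact hΦZ' _ he
  rw [hbot, mem_bot] at h1
  exact Subtype.ext (congrArg (fun x : G2 => (x : G)) h1)

/-- **(B-L34)** -/
theorem l34 {K : Type*} [Field K] [Finite K] (hK : Nat.card K = 4) {G : Type u} [Group G] [Finite G]
    (Z E : Subgroup G) (hE : E.Normal) (hperf : ⁅E, E⁆ = E) (hZ : Z ≤ Subgroup.center G)
    (h3Z : ¬ 3 ∣ Nat.card Z) (hC : Subgroup.centralizer (E : Set G) ≤ Z)
    (π : E →* Matrix.ProjectiveSpecialLinearGroup (Fin 3) K) (hs : Function.Surjective π)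
    (hk : ∀ e : E, π e = 1 ↔ (e : G) ∈ Z) (h3 : 3 ∣ (E ⊔ Z).index) : ∀ e : E, (e : G) ∈ Z → e = 1 := by
  classical
  haveI := Fintype.ofFinite K
  obtain ⟨j⟩ := nonempty_psl_equiv (n := Fin 3) K (by rw [← Nat.card_eq_fintype_card]; exact hK)
  refine l34_aux Z E hE hperf hZ h3Z hC (j.symm.toMonoidHom.comp π) (j.symm.surjective.comp hs) ?_ h3
  intro e
  rw [← hk]
  show j.symm (π e) = 1 ↔ _
  rw [map_eq_one_iff j.symm j.symm.injective]

end Cfsg.Agent.H234.RIM.L34
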