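import Cfsg.Agent.H20.NX.Norm

/-!
# S4816, layer (B), box [d]: conjugates of an element of order `3` of `Sp_{2n}(2)`, sharper

If `x` has order `3` and `|C_U(x)| = 2 ^ (2 (n - k))`, `k ≥ 1`, the centralizer of `x` in `Sp(U)` has at least
`3 * 4 ^ (k (k - 1) / 2) * |Sp(C_U(x))|` elements.

* `exists_glue` : isometries of complements of hyperbolic pairs extend;
* `iso` : `(V, B, x)` is determined by the dimensions of `V` and of the fixed space;
* `key` : the number of isometries commuting with `x`;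
* `centralizer_index_le`.
-/

set_option autoImplicit false
set_option linter.unusedSectionVars false

open Module
open Cfsg.Agent.LieClassical.SympCount
open Cfsg.Agent.H727.GW

namespace Cfsg.Agent.H234.RIM.NormSharp

open Cfsg.Agent.H20.NX (symm2 add_self2 neg_self2 sq_moved exists_v resTo resTo_apply)

universe u

section glue

variable {V V' : Type u} [AddCommGroup V] [Module (ZMod 2) V] [Finite V] [AddCommGroup V'] [Module (ZMod 2) V']
  [Finite V'] {B : LinearMap.BilinForm (ZMod 2) V} {B' : LinearMap.BilinForm (ZMod 2) V'}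

/-- coordinates with respect to a hyperbolic pair -/
def co (hB : ∀ x, B x x = 0) {v w : V} (h : B v w = 1) : V ≃ₗ[ZMod 2] (ZMod 2 × ZMod 2) × perp B v w where
  toFun u := ((B u w, B v u), ⟨u - (B u w • v + B v u • w), by
    rw [mem_perp]
    have e1 : B w v = 1 := by rw [symm2 hB, h]
    have e2 : B w u = B u w := symm2 hB w u
    simp [hB, h, e1, e2]⟩)
  map_add' a b := by
    refine Prod.ext (Prod.ext ?_ ?_) (Subtype.ext ?_)
    · simp
    · simp
    · simp only [map_add, LinearMap.add_apply, add_smul]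
      show a + b - (B a w • v + B b w • v + (B v a • w + B v b • w)) =
        (a - (B a w • v + B v a • w)) + (b - (B b w • v + B v b • w))
      abel
  map_smul' c a := by
    refine Prod.ext (Prod.ext ?_ ?_) (Subtype.ext ?_)
    · simp
    · simp
    · simp only [map_smul, LinearMap.smul_apply, RingHom.id_apply]
      show c • a - ((c • B a w) • v + (c • B v a) • w) = c • (a - (B a w • v + B v a • w))
      rw [smul_sub, smul_add, smul_assoc, smul_assoc]
  invFun p := p.1.1 • v + p.1.2 • w + p.2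
  left_inv u := by
    show B u w • v + B v u • w + (u - (B u w • v + B v u • w)) = u
    abel
  right_inv p := by
    obtain ⟨⟨a, b⟩, d, hd⟩ := p
    rw [mem_perp] at hd
    have h1 : B (a • v + b • w + d) w = a := by
      have e1 : B d w = 0 := by rw [symm2 hB, hd.2]
      simp [hB, h, e1]
    have h2 : B v (a • v + b • w + d) = b := by
      simp [hB, h, hd.1]
    refine Prod.ext (Prod.ext h1 h2) (Subtype.ext ?_)
    show a • v + b • w + d - (B (a • v + b • w + d) w • v + B v (a • v + b • w + d) • w) = d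
    rw [h1, h2]
    abel

/-- **gluing** -/
theorem exists_glue (hB : ∀ x, B x x = 0) (hB' : ∀ x, B' x x = 0) {v w : V} (h : B v w = 1) {v' w' : V'}
    (h' : B' v' w' = 1) (f : perp B v w ≃ₗ[ZMod 2] perp B' v' w')
    (hf : ∀ a b : perp B v w, B' (f a) (f b) = B a b) :
    ∃ G : V ≃ₗ[ZMod 2] V', (∀ (a b : ZMod 2) (d : perp B v w), G (a • v + b • w + d) = a • v' + b • w' + f d) ∧
      ∀ a b, B' (G a) (G b) = B a b := by
  let G : V ≃ₗ[ZMod 2] V' := (co hB h).trans
    (((LinearEquiv.refl (ZMod 2) (ZMod 2 × ZMod 2)).prodCongr f).trans (co hB' h').symm)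
  have hG : ∀ (a b : ZMod 2) (d : perp B v w), G (a • v + b • w + d) = a • v' + b • w' + f d := by
    intro a b d
    have h1 : co hB h (a • v + b • w + d) = ((a, b), d) := (co hB h).right_inv ((a, b), d)
    show (co hB' h').symm (((LinearEquiv.refl (ZMod 2) (ZMod 2 × ZMod 2)).prodCongr f) (co hB h (a • v + b • w + d))) = _
    rw [h1]
    rfl
  refine ⟨G, hG, ?_⟩
  have hdec : ∀ u : V, ∃ (a b : ZMod 2) (d : perp B v w), u = a • v + b • w + d := fun u =>
    ⟨_, _, _, ((co hB h).left_inv u).symm⟩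
  intro x y
  obtain ⟨a, b, d, rfl⟩ := hdec x
  obtain ⟨a₁, b₁, d₁, rfl⟩ := hdec y
  rw [hG, hG]
  have e1 : ∀ d : perp B v w, B v d = 0 ∧ B w d = 0 := fun d => (mem_perp B v w d).1 d.2
  have e2 : ∀ d : perp B' v' w', B' v' d = 0 ∧ B' w' d = 0 := fun d => (mem_perp B' v' w' d).1 d.2
  have e3 : ∀ d : perp B v w, B d v = 0 ∧ B d w = 0 := fun d => by
    rw [symm2 hB _ v, symm2 hB _ w]; exact e1 d
  have e4 : ∀ d : perp B' v' w', B' d v' = 0 ∧ B' d w' = 0 := fun d => by
    rw [symm2 hB' _ v', symm2 hB' _ w']; exact e2 d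
  have e5 : B w v = 1 := by rw [symm2 hB, h]
  have e6 : B' w' v' = 1 := by rw [symm2 hB', h']
  simp only [map_add, map_smul, LinearMap.add_apply, LinearMap.smul_apply, hB, hB', h, h', e5, e6, (e1 _).1, (e1 _).2,
    (e2 _).1, (e2 _).2, (e3 _).1, (e3 _).2, (e4 _).1, (e4 _).2, hf]

end glue

section classes

/-- nondegenerate alternating forms of the same dimension are isometric -/
theorem iso0 : ∀ (m : ℕ) (V V' : Type u) [AddCommGroup V] [Module (ZMod 2) V] [Finite V] [AddCommGroup V']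
    [Module (ZMod 2) V'] [Finite V'] (B : LinearMap.BilinForm (ZMod 2) V) (B' : LinearMap.BilinForm (ZMod 2) V'),
    (∀ x, B x x = 0) → (∀ x, (∀ y, B x y = 0) → x = 0) → (∀ x, B' x x = 0) → (∀ x, (∀ y, B' x y = 0) → x = 0) →
    finrank (ZMod 2) V = 2 * m → finrank (ZMod 2) V' = 2 * m →
    ∃ f : V ≃ₗ[ZMod 2] V', ∀ a b, B' (f a) (f b) = B a b := by
  intro m
  induction m with
  | zero =>
    intro V V' _ _ _ _ _ _ B B' hB hnd hB' hnd' hV hV'
    refine ⟨LinearEquiv.ofFinrankEq V V' (by rw [hV, hV']), fun a b => ?_⟩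
    have hs : Subsingleton V := Module.finrank_zero_iff.1 hV
    have hs' : Subsingleton V' := Module.finrank_zero_iff.1 hV'
    rw [Subsingleton.elim a 0, map_zero, map_zero, map_zero]
    rfl
  | succ m ih =>
    intro V V' _ _ _ _ _ _ B B' hB hnd hB' hnd' hV hV'
    have hex : ∀ (V : Type u) [AddCommGroup V] [Module (ZMod 2) V] [Finite V] (B : LinearMap.BilinForm (ZMod 2) V),
        (∀ x, (∀ y, B x y = 0) → x = 0) → finrank (ZMod 2) V = 2 * (m + 1) → ∃ v w, B v w = 1 := by
      intro V _ _ _ B hnd hV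
      have : Nontrivial V := Module.nontrivial_of_finrank_pos (R := ZMod 2) (by omega)
      obtain ⟨v, hv⟩ := exists_ne (0 : V)
      by_contra hcon
      push Not at hcon
      apply hv
      apply hnd
      intro w
      have h01 : ∀ c : ZMod 2, c ≠ 1 → c = 0 := by decide
      exact h01 _ (hcon v w)
    obtain ⟨v, w, h⟩ := hex V B hnd hV
    obtain ⟨v', w', h'⟩ := hex V' B' hnd' hV'
    obtain ⟨f, hf⟩ := ih (perp B v w) (perp B' v' w') (B.restrict (perp B v w)) (B'.restrict (perp B' v' w'))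
      (fun d => hB d) (nondeg_perp B hB hnd h) (fun d => hB' d) (nondeg_perp B' hB' hnd' h')
      (by have := finrank_perp B hB h; omega) (by have := finrank_perp B' hB' h'; omega)
    obtain ⟨G, -, hG⟩ := exists_glue hB hB' h h' f hf
    exact ⟨G, hG⟩

variable {V : Type u} [AddCommGroup V] [Module (ZMod 2) V] [Finite V] {B : LinearMap.BilinForm (ZMod 2) V}

theorem cube {x : V ≃ₗ[ZMod 2] V} (h3 : x ^ 3 = 1) (u : V) : x (x (x u)) = u := by
  have h6 : (x ^ 3) u = u := by rw [h3]; rfl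
  rw [pow_succ, pow_two] at h6
  exact h6

/-- the complement of `v, x v` is invariant -/
theorem perp_inv (hB : ∀ x, B x x = 0) (hnd : ∀ x, (∀ y, B x y = 0) → x = 0) {x : V ≃ₗ[ZMod 2] V}
    (hx : x ∈ isomGroup B) (h3 : x ^ 3 = 1) {v : V} (hvD : v ∈ B.orthogonal (fixS x)) :
    ∀ c ∈ perp B v (x v), x c ∈ perp B v (x v) := by
  intro c hc
  rw [mem_perp] at hc ⊢
  have h1 : ∀ u c, B u (x c) = B (x (x u)) c := by
    intro u c
    have := hx (x (x u)) c
    rw [cube h3] at this
    exact this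
  have hxx := sq_moved hB hnd hx h3 hvD
  refine ⟨?_, ?_⟩
  · rw [h1, hxx, map_add, LinearMap.add_apply, hc.1, hc.2, add_zero]
  · rw [hx]; exact hc.1

theorem fix_le_perp (hB : ∀ x, B x x = 0) {x : V ≃ₗ[ZMod 2] V}
    (hx : x ∈ isomGroup B) {v : V} (hvD : v ∈ B.orthogonal (fixS x)) :
    fixS x ≤ perp B v (x v) := by
  intro c hc
  rw [mem_perp]
  have hvc : B v c = 0 := by
    rw [symm2 hB]
    exact (LinearMap.BilinForm.mem_orthogonal_iff.1 hvD) c hc
  refine ⟨hvc, ?_⟩
  have h1 := hx v c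
  rw [mem_fixS.1 hc] at h1
  rw [h1, hvc]

/-- the situation on the complement -/
theorem perp_data (hB : ∀ x, B x x = 0) (hnd : ∀ x, (∀ y, B x y = 0) → x = 0) {x : V ≃ₗ[ZMod 2] V}
    (hx : x ∈ isomGroup B) (h3 : x ^ 3 = 1) {v : V} (hvD : v ∈ B.orthogonal (fixS x)) (hv : B v (x v) = 1)
    {k m : ℕ} (hf : finrank (ZMod 2) (fixS x) = 2 * m) (hV : finrank (ZMod 2) V = 2 * (m + (k + 1))) :
    (resTo x (perp B v (x v)) (perp_inv hB hnd hx h3 hvD)) ^ 3 = 1 ∧
    finrank (ZMod 2) (fixS (resTo x (perp B v (x v)) (perp_inv hB hnd hx h3 hvD))) = 2 * m ∧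
    finrank (ZMod 2) (perp B v (x v)) = 2 * (m + k) := by
  refine ⟨?_, ?_, ?_⟩
  · apply LinearEquiv.ext
    intro d
    apply Subtype.ext
    rw [pow_succ, pow_two]
    exact cube h3 d
  · have h1 : fixS (resTo x (perp B v (x v)) (perp_inv hB hnd hx h3 hvD)) =
        (fixS x).comap (perp B v (x v)).subtype := by
      ext d
      rw [mem_fixS, Submodule.mem_comap, mem_fixS]
      exact Subtype.ext_iff
    rw [h1, (Submodule.comapSubtypeEquivOfLe (fix_le_perp hB hx hvD)).finrank_eq, hf]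
  · have := finrank_perp B hB hv
    omega

theorem moved_ne_bot (hB : ∀ x, B x x = 0) (hnd : ∀ x, (∀ y, B x y = 0) → x = 0) {x : V ≃ₗ[ZMod 2] V}
    (hx : x ∈ isomGroup B) (h3 : x ^ 3 = 1) {k m : ℕ} (hf : finrank (ZMod 2) (fixS x) = 2 * m)
    (hV : finrank (ZMod 2) V = 2 * (m + (k + 1))) : B.orthogonal (fixS x) ≠ ⊥ := by
  have hp : ((3 : ℕ) : ZMod 2) ≠ 0 := by decide
  have hC := nondeg_fix hnd hx hp h3
  have hD := finrank_orth hB _ hC
  intro h
  rw [h, finrank_bot] at hD
  omega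

/-- gluing with `x` -/
theorem exists_glue_x {V' : Type u} [AddCommGroup V'] [Module (ZMod 2) V'] [Finite V']
    {B' : LinearMap.BilinForm (ZMod 2) V'} (hB : ∀ x, B x x = 0) (hnd : ∀ x, (∀ y, B x y = 0) → x = 0)
    (hB' : ∀ x, B' x x = 0) (hnd' : ∀ x, (∀ y, B' x y = 0) → x = 0) {x : V ≃ₗ[ZMod 2] V} {x' : V' ≃ₗ[ZMod 2] V'}
    (hx : x ∈ isomGroup B) (h3 : x ^ 3 = 1) (hx' : x' ∈ isomGroup B') (h3' : x' ^ 3 = 1) {v : V} {v' : V'}
    (hvD : v ∈ B.orthogonal (fixS x)) (hv : B v (x v) = 1) (hvD' : v' ∈ B'.orthogonal (fixS x'))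
    (hv' : B' v' (x' v') = 1) (f : perp B v (x v) ≃ₗ[ZMod 2] perp B' v' (x' v'))
    (hf : ∀ a b : perp B v (x v), B' (f a) (f b) = B a b)
    (hfx : ∀ d : perp B v (x v), (f (resTo x _ (perp_inv hB hnd hx h3 hvD) d) : V') = x' (f d)) :
    ∃ G : V ≃ₗ[ZMod 2] V', (∀ a b, B' (G a) (G b) = B a b) ∧ (∀ a, G (x a) = x' (G a)) ∧ G v = v' ∧
      ∀ d : perp B v (x v), G d = f d := by
  obtain ⟨G, hG, hiso⟩ := exists_glue hB hB' hv hv' f hf
  have hxx := sq_moved hB hnd hx h3 hvD
  have hxx' := sq_moved hB' hnd' hx' h3' hvD'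
  refine ⟨G, hiso, ?_, ?_, ?_⟩
  · intro u
    obtain ⟨a, b, d, rfl⟩ : ∃ (a b : ZMod 2) (d : perp B v (x v)), u = a • v + b • x v + d :=
      ⟨_, _, _, ((co hB hv).left_inv u).symm⟩
    have h1 : x (a • v + b • x v + (d : V)) =
        b • v + (a + b) • x v + ((resTo x _ (perp_inv hB hnd hx h3 hvD) d : perp B v (x v)) : V) := by
      rw [map_add, map_add, map_smul, map_smul, hxx, resTo_apply, smul_add, add_smul]
      abel
    rw [h1, hG, hG, hfx, map_add, map_add, map_smul, map_smul, hxx', smul_add, add_smul]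
    abel
  · have h1 := hG 1 0 0
    simpa using h1
  · intro d
    have h1 := hG 0 0 d
    simpa using h1

/-- **the classification of the triples `(V, B, x)`** -/
theorem iso : ∀ (k m : ℕ) (V V' : Type u) [AddCommGroup V] [Module (ZMod 2) V] [Finite V] [AddCommGroup V']
    [Module (ZMod 2) V'] [Finite V'] (B : LinearMap.BilinForm (ZMod 2) V) (B' : LinearMap.BilinForm (ZMod 2) V')
    (x : V ≃ₗ[ZMod 2] V) (x' : V' ≃ₗ[ZMod 2] V'),
    (∀ x, B x x = 0) → (∀ x, (∀ y, B x y = 0) → x = 0) → (∀ x, B' x x = 0) → (∀ x, (∀ y, B' x y = 0) → x = 0) →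
    x ∈ isomGroup B → x ^ 3 = 1 → x' ∈ isomGroup B' → x' ^ 3 = 1 →
    finrank (ZMod 2) (fixS x) = 2 * m → finrank (ZMod 2) V = 2 * (m + k) →
    finrank (ZMod 2) (fixS x') = 2 * m → finrank (ZMod 2) V' = 2 * (m + k) →
    ∃ f : V ≃ₗ[ZMod 2] V', (∀ a b, B' (f a) (f b) = B a b) ∧ ∀ a, f (x a) = x' (f a) := by
  intro k
  induction k with
  | zero =>
    intro m V V' _ _ _ _ _ _ B B' x x' hB hnd hB' hnd' hx h3 hx' h3' hf hV hf' hV'
    have h1 : ∀ a, x a = a := by
      have h1 : fixS x = ⊤ := Submodule.eq_top_of_finrank_eq (by rw [hf, hV, add_zero])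
      intro a
      have : a ∈ fixS x := by rw [h1]; exact Submodule.mem_top
      exact this
    have h1' : ∀ a, x' a = a := by
      have h1 : fixS x' = ⊤ := Submodule.eq_top_of_finrank_eq (by rw [hf', hV', add_zero])
      intro a
      have : a ∈ fixS x' := by rw [h1]; exact Submodule.mem_top
      exact this
    obtain ⟨f, hf⟩ := iso0 m V V' B B' hB hnd hB' hnd' (by rw [hV, add_zero]) (by rw [hV', add_zero])
    exact ⟨f, hf, fun a => by rw [h1, h1']⟩
  | succ k ih =>
    intro m V V' _ _ _ _ _ _ B B' x x' hB hnd hB' hnd' hx h3 hx' h3' hf hV hf' hV'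
    obtain ⟨v, hvD, hv⟩ := exists_v hB hnd hx h3 (moved_ne_bot hB hnd hx h3 hf hV)
    obtain ⟨v', hvD', hv'⟩ := exists_v hB' hnd' hx' h3' (moved_ne_bot hB' hnd' hx' h3' hf' hV')
    obtain ⟨a1, a2, a3⟩ := perp_data hB hnd hx h3 hvD hv hf hV
    obtain ⟨b1, b2, b3⟩ := perp_data hB' hnd' hx' h3' hvD' hv' hf' hV'
    obtain ⟨f, hf1, hf2⟩ := ih m (perp B v (x v)) (perp B' v' (x' v')) (B.restrict _) (B'.restrict _)
      (resTo x _ (perp_inv hB hnd hx h3 hvD)) (resTo x' _ (perp_inv hB' hnd' hx' h3' hvD'))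
      (fun d => hB d) (nondeg_perp B hB hnd hv) (fun d => hB' d) (nondeg_perp B' hB' hnd' hv')
      (fun a b => hx a b) a1 (fun a b => hx' a b) b1 a2 a3 b2 b3
    obtain ⟨G, hG1, hG2, -, -⟩ := exists_glue_x hB hnd hB' hnd' hx h3 hx' h3' hvD hv hvD' hv' f hf1
      (fun d => by rw [hf2]; rfl)
    exact ⟨G, hG1, hG2⟩

/-- every coset of the plane of `v` in the moved space contains a vector `u` with `B u (x u) = 1` -/
theorem exists_in_coset (hB : ∀ x, B x x = 0) (hnd : ∀ x, (∀ y, B x y = 0) → x = 0) {x : V ≃ₗ[ZMod 2] V}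
    (hx : x ∈ isomGroup B) (h3 : x ^ 3 = 1) {v : V} (hvD : v ∈ B.orthogonal (fixS x)) (hv : B v (x v) = 1) (w : V) :
    ∃ a b : ZMod 2, B (a • v + b • x v + w) (x (a • v + b • x v + w)) = 1 := by
  have hxx := sq_moved hB hnd hx h3 hvD
  have e1 : B (x v) v = 1 := by rw [symm2 hB, hv]
  have e2 : B v (x w) = B w v + B w (x v) := by
    have := hx (x (x v)) w
    rw [cube h3] at this
    rw [this, hxx, map_add, LinearMap.add_apply, symm2 hB v w, symm2 hB (x v) w]
  have e3 : B (x v) (x w) = B w v := by rw [hx, symm2 hB]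
  have hform : ∀ a b : ZMod 2, B (a • v + b • x v + w) (x (a • v + b • x v + w)) =
      B w (x w) + a * B w v + b * B w (x v) + a + a * b + b := by
    intro a b
    have h1 : x (a • v + b • x v + w) = a • x v + b • (v + x v) + x w := by
      rw [map_add, map_add, map_smul, map_smul, hxx]
    rw [h1]
    clear h1
    simp only [map_add, map_smul, LinearMap.add_apply, LinearMap.smul_apply, hB, hv, e1, e2, e3, smul_eq_mul]
    generalize B w (x w) = q
    generalize B w v = s
    generalize B w (x v) = t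
    revert a b q s t
    decide
  by_contra hcon
  push Not at hcon
  simp only [hform] at hcon
  revert hcon
  generalize B w (x w) = q
  generalize B w v = s
  generalize B w (x v) = t
  revert q s t
  decide

/-- **the number of isometries commuting with `x`** -/
theorem key : ∀ (k : ℕ), 1 ≤ k → ∀ (m : ℕ) (V : Type u) [AddCommGroup V] [Module (ZMod 2) V] [Finite V]
    (B : LinearMap.BilinForm (ZMod 2) V) (x : V ≃ₗ[ZMod 2] V), (∀ x, B x x = 0) → (∀ x, (∀ y, B x y = 0) → x = 0) →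
    x ∈ isomGroup B → x ^ 3 = 1 → finrank (ZMod 2) (fixS x) = 2 * m → finrank (ZMod 2) V = 2 * (m + k) →
    3 * 4 ^ (k * (k - 1) / 2) * Cfsg.Agent.H37.NW.P 2 m ≤
      Nat.card {g : isomGroup B // (g : V ≃ₗ[ZMod 2] V) * x = x * g} := by
  intro k hk
  induction k, hk using Nat.le_induction with
  | base =>
    intro m V _ _ _ B x hB hnd hx h3 hf hV
    have h1 := (Cfsg.Agent.H20.NX.key 1 m V B x hB hnd hx h3 hf hV).1
    simpa using h1
  | succ k hk ih =>
    intro m V _ _ _ B x hB hnd hx h3 hf hV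
    classical
    obtain ⟨v, hvD, hv⟩ := exists_v hB hnd hx h3 (moved_ne_bot hB hnd hx h3 hf hV)
    obtain ⟨a1, a2, a3⟩ := perp_data hB hnd hx h3 hvD hv hf hV
    set E' := perp B v (x v) with hE'
    set x' := resTo x E' (perp_inv hB hnd hx h3 hvD) with hx'def
    have hnd' := nondeg_perp B hB hnd hv
    have hx'm : x' ∈ isomGroup (B.restrict E') := fun a b => hx a b
    have hc := ih m E' (B.restrict E') x' (fun d => hB d) hnd' hx'm a1 a2 a3
    have hp : ((3 : ℕ) : ZMod 2) ≠ 0 := by decide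
    have hD := finrank_orth (B := B.restrict E') (fun d => hB d) _ (nondeg_fix hnd' hx'm hp a1)
    rw [a2, a3] at hD
    set D := (B.restrict E').orthogonal (fixS x') with hDdef
    have hDf : finrank (ZMod 2) D = 2 * k := by omega
    have hDc : Nat.card D = 4 ^ k := by
      rw [Module.natCard_eq_pow_finrank (K := ZMod 2), hDf, Nat.card_zmod, pow_mul]
      norm_num
    -- the vectors
    have hDv : ∀ d : D, ((d : E') : V) ∈ B.orthogonal (fixS x) := by
      intro d
      rw [LinearMap.BilinForm.mem_orthogonal_iff]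
      intro c hc
      have hcE : c ∈ E' := fix_le_perp hB hx hvD hc
      exact (LinearMap.BilinForm.mem_orthogonal_iff.1 d.2) ⟨c, hcE⟩ (Subtype.ext hc)
    have hom : ∀ d : D, ∃ a b : ZMod 2, B (a • v + b • x v + ((d : E') : V)) (x (a • v + b • x v + ((d : E') : V))) = 1 :=
      fun d => exists_in_coset hB hnd hx h3 hvD hv _
    choose α β hαβ using hom
    let om : D → V := fun d => α d • v + β d • x v + ((d : E') : V)
    have hom1 : ∀ d, B (om d) (x (om d)) = 1 := hαβ
    have hxvD : x v ∈ B.orthogonal (fixS x) := orth_map hx hvD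
    have homD : ∀ d, om d ∈ B.orthogonal (fixS x) := fun d =>
      add_mem (add_mem (Submodule.smul_mem _ _ hvD) (Submodule.smul_mem _ _ hxvD)) (hDv d)
    have homi : ∀ d d' : D, om d = om d' → d = d' := by
      intro d d' h
      have h1 : ∀ d : D, co hB hv (om d) = ((α d, β d), (d : E')) := fun d => (co hB hv).right_inv ((α d, β d), (d : E'))
      have h2 := h1 d
      rw [h, h1 d'] at h2
      exact Subtype.ext (congrArg Prod.snd h2).symm
    -- the isometries
    have hf : ∀ d : D, ∃ f : E' ≃ₗ[ZMod 2] perp B (om d) (x (om d)),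
        (∀ a b : E', B (f a) (f b) = B a b) ∧ ∀ a : E', (f (x' a) : V) = x (f a) := by
      intro d
      obtain ⟨b1, b2, b3⟩ := perp_data hB hnd hx h3 (homD d) (hom1 d) hf hV
      obtain ⟨f, hf1, hf2⟩ := iso k m E' (perp B (om d) (x (om d))) (B.restrict _) (B.restrict _) x'
        (resTo x _ (perp_inv hB hnd hx h3 (homD d))) (fun d => hB d) hnd' (fun d => hB d)
        (nondeg_perp B hB hnd (hom1 d)) hx'm a1 (fun a b => hx a b) b1 a2 a3 b2 b3
      exact ⟨f, hf1, fun a => by rw [hf2]; rfl⟩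
    choose f hf1 hf2 using hf
    let C' := {g : isomGroup (B.restrict E') // (g : E' ≃ₗ[ZMod 2] E') * x' = x' * g}
    have hΦ : ∀ t : D × C', ∃ g : {g : isomGroup B // (g : V ≃ₗ[ZMod 2] V) * x = x * g},
        ((g : isomGroup B) : V ≃ₗ[ZMod 2] V) v = om t.1 ∧
        ∀ e : E', ((g : isomGroup B) : V ≃ₗ[ZMod 2] V) e = f t.1 (((t.2 : isomGroup (B.restrict E')) : E' ≃ₗ[ZMod 2] E') e) := by
      rintro ⟨d, h⟩
      obtain ⟨G, hG1, hG2, hG3, hG4⟩ := exists_glue_x hB hnd hB hnd hx h3 hx h3 hvD hv (homD d) (hom1 d)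
        (((h : isomGroup (B.restrict E')) : E' ≃ₗ[ZMod 2] E').trans (f d)) (by
          intro a b
          show B (f d (h.1.1 a)) (f d (h.1.1 b)) = B a b
          rw [hf1]
          exact h.1.2 a b) (by
          intro e
          show (f d (h.1.1 (x' e)) : V) = x (f d (h.1.1 e))
          have h1 : h.1.1 (x' e) = x' (h.1.1 e) :=
            congrArg (fun g : E' ≃ₗ[ZMod 2] E' => g e) h.2
          rw [h1, hf2])
      exact ⟨⟨⟨G, hG1⟩, LinearEquiv.ext hG2⟩, hG3, hG4⟩
    choose Φ hΦ1 hΦ2 using hΦ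
    have hinj : Function.Injective Φ := by
      rintro ⟨d, h⟩ ⟨d', h'⟩ he
      have h1 : om d = om d' := by rw [← hΦ1 ⟨d, h⟩, ← hΦ1 ⟨d', h'⟩, he]
      have h2 := homi _ _ h1
      subst h2
      have h3 : h = h' := by
        apply Subtype.ext
        apply Subtype.ext
        apply LinearEquiv.ext
        intro e
        have h4 := hΦ2 ⟨d, h⟩ e
        rw [he, hΦ2 ⟨d, h'⟩ e] at h4
        exact ((f d).injective (Subtype.ext h4)).symm
      rw [h3]
    have hfin : Finite (V ≃ₗ[ZMod 2] V) := Finite.of_injective (fun e : V ≃ₗ[ZMod 2] V => (e : V → V)) DFunLike.coe_injective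
    have h5 := Nat.card_le_card_of_injective Φ hinj
    rw [Nat.card_prod, hDc] at h5
    refine le_trans ?_ h5
    have h6 : (k + 1) * (k + 1 - 1) / 2 = k * (k - 1) / 2 + k := by
      obtain ⟨j, rfl⟩ : ∃ j, k = j + 1 := ⟨k - 1, by omega⟩
      have h7 : (j + 1 + 1) * (j + 1 + 1 - 1) = (j + 1) * (j + 1 - 1) + (j + 1) * 2 := by
        simp only [Nat.add_sub_cancel]
        ring
      rw [h7, Nat.add_mul_div_right _ _ (by norm_num)]
    rw [h6, pow_add]
    calc 3 * (4 ^ (k * (k - 1) / 2) * 4 ^ k) * Cfsg.Agent.H37.NW.P 2 m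
        = 4 ^ k * (3 * 4 ^ (k * (k - 1) / 2) * Cfsg.Agent.H37.NW.P 2 m) := by ring
      _ ≤ _ := Nat.mul_le_mul_left _ hc

end classes

section

variable {n : ℕ} {Y U : Type*} [Group Y] [Finite Y] [AddCommGroup U] [Finite U] [DistribMulAction Y U]

/-- **[d]** the index of the centralizer of an element of order three -/
theorem centralizer_index_le {B : U → U → ZMod 2} (faith : ∀ y : Y, (∀ u : U, y • u = u) → y = 1)
    (exp : ∀ u : U, 2 • u = 0) (card : Nat.card U = 2 ^ (2 * n))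
    (addl : ∀ u v w : U, B (u + v) w = B u w + B v w) (addr : ∀ u v w : U, B u (v + w) = B u v + B u w)
    (alt : ∀ u : U, B u u = 0)
    (nd : ∀ u : U, (∀ v : U, B u v = 0) → u = 0) (inv : ∀ (y : Y) (u v : U), B (y • u) (y • v) = B u v) {x : Y}
    (hx : orderOf x = 3) {k : ℕ} (hk1 : 1 ≤ k) (hk : k ≤ n)
    (hfix : Nat.card {u : U // x • u = u} = 2 ^ (2 * (n - k))) :
    (Subgroup.centralizer ({x} : Set Y)).index *
      (3 * 4 ^ (k * (k - 1) / 2) * Cfsg.Agent.H37.NW.P 2 (n - k)) ≤ Cfsg.Agent.H37.NW.P 2 n := by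
  obtain ⟨M, B', ρ, h1, -, h2, h3, h4, h5⟩ := setup B faith exp card addl addr alt nd inv
  have hxm : (ρ x : U ≃ₗ[ZMod 2] U) ∈ isomGroup B' := (ρ x).2
  have hord : orderOf (ρ x : U ≃ₗ[ZMod 2] U) = 3 := by
    rw [Subgroup.orderOf_coe, orderOf_injective _ h2, hx]
  have hxp : (ρ x : U ≃ₗ[ZMod 2] U) ^ 3 = 1 := hord ▸ pow_orderOf_eq_one _
  have h6 : Nat.card {u : U // x • u = u} = Nat.card (fixS (ρ x : U ≃ₗ[ZMod 2] U)) := by
    refine Nat.card_congr (Equiv.subtypeEquivRight fun u => ?_)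
    show x • u = u ↔ (ρ x : U ≃ₗ[ZMod 2] U) u = u
    rw [h5]
  rw [hfix, Module.natCard_eq_pow_finrank (K := ZMod 2) (V := fixS (ρ x : U ≃ₗ[ZMod 2] U)), Nat.card_zmod] at h6
  have h7 := Nat.pow_right_injective (le_refl 2) h6
  have hcard := key k hk1 (n - k) U B' (ρ x) h3 h4 hxm hxp h7.symm (by rw [h1]; omega)
  have hfinE : Finite (U ≃ₗ[ZMod 2] U) :=
    Finite.of_injective (fun e : U ≃ₗ[ZMod 2] U => (e : U → U)) DFunLike.coe_injective
  have h8 : Nat.card {g : isomGroup B' // (g : U ≃ₗ[ZMod 2] U) * (ρ x : U ≃ₗ[ZMod 2] U) = (ρ x : U ≃ₗ[ZMod 2] U) * g} =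
      Nat.card (Subgroup.centralizer ({ρ x} : Set (isomGroup B'))) := by
    refine Nat.card_congr (Equiv.subtypeEquivRight fun g => ?_)
    rw [Subgroup.mem_centralizer_singleton_iff, Subtype.ext_iff]
    rfl
  have h12 := card_isomGroup B' h3 h4 h1
  rw [ZMod.card] at h12
  change Nat.card (isomGroup B') = Cfsg.Agent.H37.NW.P 2 n at h12
  rw [h8] at hcard
  rw [← h12, ← Subgroup.index_mul_card (Subgroup.centralizer ({ρ x} : Set (isomGroup B')))]
  refine Nat.mul_le_mul ?_ hcard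
  have h13 : Subgroup.centralizer ({x} : Set Y) = (Subgroup.centralizer ({ρ x} : Set (isomGroup B'))).comap ρ := by
    ext y
    rw [Subgroup.mem_comap, Subgroup.mem_centralizer_singleton_iff, Subgroup.mem_centralizer_singleton_iff,
      ← map_mul, ← map_mul]
    exact ⟨fun h => congrArg ρ h, fun h => h2 h⟩
  rw [h13, Subgroup.index_comap]
  have hfinI : Finite (isomGroup B') := inferInstance
  have h14 := Subgroup.relIndex_le_of_le_right (H := Subgroup.centralizer ({ρ x} : Set (isomGroup B')))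
    (le_top : ρ.range ≤ ⊤) (by rw [Subgroup.relIndex_top_right]; exact Subgroup.index_ne_zero_of_finite)
  rwa [Subgroup.relIndex_top_right] at h14


/-- the same for all `k ≤ n` -/
theorem centralizer_index_le' {B : U → U → ZMod 2} (faith : ∀ y : Y, (∀ u : U, y • u = u) → y = 1)
    (exp : ∀ u : U, 2 • u = 0) (card : Nat.card U = 2 ^ (2 * n))
    (addl : ∀ u v w : U, B (u + v) w = B u w + B v w) (addr : ∀ u v w : U, B u (v + w) = B u v + B u w)
    (alt : ∀ u : U, B u u = 0)
    (nd : ∀ u : U, (∀ v : U, B u v = 0) → u = 0) (inv : ∀ (y : Y) (u v : U), B (y • u) (y • v) = B u v) {x : Y}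
    (hx : orderOf x = 3) {k : ℕ} (hk : k ≤ n)
    (hfix : Nat.card {u : U // x • u = u} = 2 ^ (2 * (n - k))) :
    (Subgroup.centralizer ({x} : Set Y)).index *
      (3 * 4 ^ (k * (k - 1) / 2) * Cfsg.Agent.H37.NW.P 2 (n - k)) ≤ Cfsg.Agent.H37.NW.P 2 n := by
  rcases Nat.eq_zero_or_pos k with rfl | hk1
  · exfalso
    rw [Nat.sub_zero, ← card] at hfix
    have h1 : ∀ u : U, x • u = u := by
      intro u
      have h2 : Function.Injective (Subtype.val : {u : U // x • u = u} → U) := Subtype.val_injective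
      have h3 : Function.Bijective (Subtype.val : {u : U // x • u = u} → U) :=
        (Nat.bijective_iff_injective_and_card _).2 ⟨h2, hfix⟩
      obtain ⟨⟨w, hw⟩, rfl⟩ := h3.2 u
      exact hw
    rw [faith x h1, orderOf_one] at hx
    omega
  · exact centralizer_index_le faith exp card addl addr alt nd inv hx hk1 hk hfix

end

end Cfsg.Agent.H234.RIM.NormSharp
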